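import Mathlib

/-!
Orders of `p`-elements of affine groups of dimension `m` over the field with `p` elements.
-/

set_option autoImplicit false

namespace Cfsg.Agent.H79

open MulAction

theorem lt_pow_of_large_exp {p m r : ℕ} (hp : 2 ≤ p) (h : p ^ (r - 1) ≤ m) :
    r = m → m ≤ 2 ∧ (2 < p → m ≤ 1) := by
  rintro rfl
  constructor
  · by_contra hm
    obtain ⟨k, rfl⟩ : ∃ k, r = k + 3 := ⟨r - 3, by omega⟩
    have h1 : k + 3 < 2 ^ (k + 2) := by
      clear h hm
      induction k with
      | zero => norm_num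
      | succ k ih => rw [show k + 1 + 2 = k + 2 + 1 from rfl, pow_succ]; omega
    have h2 : 2 ^ (k + 2) ≤ p ^ (k + 2) := Nat.pow_le_pow_left hp _
    simp only [show k + 3 - 1 = k + 2 from rfl] at h
    omega
  · intro hp3
    by_contra hm
    obtain ⟨k, rfl⟩ : ∃ k, r = k + 2 := ⟨r - 2, by omega⟩
    have h1 : k + 2 < 3 ^ (k + 1) := by
      clear h hm
      induction k with
      | zero => norm_num
      | succ k ih => rw [pow_succ]; omega
    have h2 : 3 ^ (k + 1) ≤ p ^ (k + 1) := Nat.pow_le_pow_left hp3 _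
    simp only [show k + 2 - 1 = k + 1 from rfl] at h
    omega

/-- Nilpotency index of a unipotent endomorphism of an elementary abelian group. -/
theorem unipotent_sum_eq_zero_aux {V : Type*} [AddCommGroup V] [Finite V] (p m : ℕ)
    [Fact p.Prime] [Module (ZMod p) V] (hcard : Nat.card V = p ^ m) (T : AddMonoid.End V) (r j : ℕ)
    (hT : T ^ p ^ r = 1) (hj : m < p ^ j) :
    T ^ p ^ j = 1 ∧ ∑ i ∈ Finset.range (p ^ j), T ^ i = 0 := by
  have hp : p.Prime := Fact.out
  haveI : Module.Finite (ZMod p) V := Module.Finite.of_finite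
  have hdim : Module.finrank (ZMod p) V = m := by
    have h : Nat.card V = Nat.card (ZMod p) ^ Module.finrank (ZMod p) V :=
      Module.natCard_eq_pow_finrank
    rw [Nat.card_zmod, hcard] at h
    exact (Nat.pow_right_injective hp.two_le h).symm
  let L : Module.End (ZMod p) V := AddMonoidHom.toZModLinearMap p T
  have hL : ∀ k : ℕ, ∀ v, (L ^ k) v = (T ^ k) v := by
    intro k
    induction k with
    | zero => intro v; rfl
    | succ k ih =>
      intro v
      rw [pow_succ, pow_succ]
      show (L ^ k) (L v) = (T ^ k) (T v)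
      rw [ih]; rfl
  have hLr : L ^ p ^ r = 1 := LinearMap.ext fun v => by rw [hL, hT]; rfl
  suffices h : L ^ p ^ j = 1 ∧ ∑ i ∈ Finset.range (p ^ j), L ^ i = 0 by
    constructor
    · refine AddMonoidHom.ext fun v => ?_
      show (T ^ p ^ j) v = v
      rw [← hL, h.1]; rfl
    · refine AddMonoidHom.ext fun v => ?_
      have h3 : (∑ i ∈ Finset.range (p ^ j), L ^ i) v = 0 := by rw [h.2]; rfl
      rw [LinearMap.sum_apply] at h3
      simp only [hL] at h3
      refine Eq.trans ?_ h3
      clear h3 h hj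
      induction Finset.range (p ^ j) using Finset.induction with
      | empty => simp; rfl
      | insert a s ha ih =>
        rw [Finset.sum_insert ha, Finset.sum_insert ha, ← ih]
        rfl
  rcases subsingleton_or_nontrivial V with hs | hs
  · exact ⟨LinearMap.ext fun x => Subsingleton.elim _ _,
      LinearMap.ext fun x => Subsingleton.elim _ _⟩
  haveI : CharP (Module.End (ZMod p) V) p :=
    charP_of_injective_algebraMap (algebraMap (ZMod p) _).injective p
  have hnil : IsNilpotent (L - 1) :=
    ⟨p ^ r, by rw [sub_pow_char_pow_of_commute _ _ (Commute.one_right L), one_pow, hLr, sub_self]⟩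
  have hSm : (L - 1) ^ m = 0 := by
    have := LinearMap.aeval_self_charpoly (L - 1)
    rwa [IsNilpotent.charpoly_eq_X_pow_finrank hnil, map_pow, Polynomial.aeval_X,
      hdim] at this
  constructor
  · rw [← sub_eq_zero, ← one_pow (p ^ j), ← sub_pow_char_pow_of_commute _ _ (Commute.one_right L),
      ← Nat.sub_add_cancel hj.le, pow_add, hSm, mul_zero]
  · have hkey : (∑ i ∈ Finset.range (p ^ j), (Polynomial.X : Polynomial (ZMod p)) ^ i) =
        (Polynomial.X - 1) ^ (p ^ j - 1) := by
      have hX : (Polynomial.X - 1 : Polynomial (ZMod p)) ≠ 0 := Polynomial.X_sub_C_ne_zero 1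
      apply mul_right_cancel₀ hX
      rw [geom_sum_mul, ← pow_succ, Nat.sub_add_cancel (Nat.one_le_pow _ _ hp.pos),
        sub_pow_char_pow, one_pow]
    have h := congrArg (Polynomial.aeval L) hkey
    simp only [map_sum, map_pow, map_sub, map_one, Polynomial.aeval_X] at h
    rw [h, ← Nat.sub_add_cancel (show m ≤ p ^ j - 1 by omega), pow_add, hSm, mul_zero]

/-- Nilpotency index of a unipotent endomorphism, module-free form. -/
theorem unipotent_sum_eq_zero {V : Type*} [AddCommGroup V] [Finite V] (p m : ℕ) [Fact p.Prime]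
    (hexp : ∀ v : V, p • v = 0) (hcard : Nat.card V = p ^ m) (T : AddMonoid.End V) (r j : ℕ)
    (hT : T ^ p ^ r = 1) (hj : m < p ^ j) :
    T ^ p ^ j = 1 ∧ ∑ i ∈ Finset.range (p ^ j), T ^ i = 0 :=
  @unipotent_sum_eq_zero_aux V _ _ p m _ (AddCommGroup.zmodModule hexp) hcard T r j hT hj

theorem affine_p_element_pow_eq_one {G : Type*} [Group G] {Ω : Type*} [Fintype Ω] [MulAction G Ω]
    [FaithfulSMul G Ω] (p m : ℕ) (hp : p.Prime) (hcard : Fintype.card Ω = p ^ m)
    (N : Subgroup G) [N.Normal] (hNc : IsMulCommutative N) (hNp : ∀ n ∈ N, n ^ p = 1)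
    (hNtr : IsPretransitive N Ω) (hNreg : ∀ ω : Ω, stabilizer N ω = ⊥)
    (g : G) (j : ℕ) (hj : m < p ^ j) (hg : ∃ r, g ^ p ^ r = 1) : g ^ p ^ j = 1 := by
  haveI := Fact.mk hp
  obtain ⟨r, hr⟩ := hg
  obtain ⟨α⟩ : Nonempty Ω := Fintype.card_pos_iff.1 (by rw [hcard]; exact pow_pos hp.pos m)
  have hcardN : Nat.card N = p ^ m := by
    rw [← hcard, ← Nat.card_eq_fintype_card, ← index_stabilizer_of_transitive N α, hNreg α,
      Subgroup.index_bot]
  haveI : Finite N := Nat.finite_of_card_ne_zero (by rw [hcardN]; exact (pow_pos hp.pos m).ne')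
  letI : CommGroup N := { (inferInstance : Group N) with mul_comm := hNc.is_comm.comm }
  obtain ⟨n, hn⟩ := hNtr.exists_smul_eq α (g • α)
  -- `g = n * h` with `h` fixing `α`
  obtain ⟨h, hh⟩ : ∃ h : G, h = (n : G)⁻¹ * g := ⟨_, rfl⟩
  have hfix : h • α = α := by
    rw [hh, mul_smul, inv_smul_eq_iff]; exact hn.symm
  have hg' : g = n * h := by rw [hh]; group
  let T : AddMonoid.End (Additive N) :=
    { toFun := fun x => Additive.ofMul (MulAut.conjNormal h (Additive.toMul x))
      map_zero' := by simp
      map_add' := fun x y => by simp }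
  have hTk : ∀ (k : ℕ) (x : Additive N),
      ((Additive.toMul ((T ^ k) x) : N) : G) = h ^ k * (Additive.toMul x : N) * (h ^ k)⁻¹ := by
    intro k
    induction k with
    | zero => intro x; simp
    | succ k ih =>
      intro x
      rw [pow_succ, pow_succ]
      show ((Additive.toMul ((T ^ k) (T x)) : N) : G) = _
      rw [ih]
      have e : ((Additive.toMul (T x) : N) : G) = h * (Additive.toMul x : N) * h⁻¹ :=
        MulAut.conjNormal_apply h (Additive.toMul x)
      rw [e]; group
  have hTr : T ^ p ^ r = 1 := by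
    have hgconj : ∀ (k : ℕ) (x : N), ∃ a : N, g ^ k = a * h ^ k := by
      intro k x
      induction k with
      | zero => exact ⟨1, by simp⟩
      | succ k ih =>
        obtain ⟨a, ha⟩ := ih
        refine ⟨a * ⟨h ^ k * n * (h ^ k)⁻¹, (inferInstance : N.Normal).conj_mem _ n.2 _⟩, ?_⟩
        rw [pow_succ, ha, hg', Subgroup.coe_mul, pow_succ]
        group
    refine AddMonoidHom.ext fun x => Additive.toMul.injective (Subtype.ext ?_)
    show ((Additive.toMul ((T ^ p ^ r) x) : N) : G) = (Additive.toMul x : N)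
    rw [hTk]
    obtain ⟨a, ha⟩ := hgconj (p ^ r) (Additive.toMul x)
    rw [hr] at ha
    have hha : h ^ p ^ r = (a⁻¹ : N) := by
      rw [Subgroup.coe_inv, eq_inv_iff_mul_eq_one]
      have : (a : G) * h ^ p ^ r = 1 := ha.symm
      exact mul_eq_one_comm.1 this
    rw [hha]
    have := congrArg Subtype.val (hNc.is_comm.comm a⁻¹ (Additive.toMul x))
    simp only [Subgroup.coe_mul] at this
    rw [this]; group
  haveI := Fact.mk hp
  obtain ⟨h1, h2⟩ := unipotent_sum_eq_zero p m (fun x => Additive.toMul.injective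
    (Subtype.ext (by simpa using hNp _ (Additive.toMul x).2)))
    ((Nat.card_congr Additive.toMul).trans hcardN) T r j hTr hj
  -- `h ^ p ^ j` centralises `N`, hence is trivial
  have hhj : h ^ p ^ j = 1 := by
    refine FaithfulSMul.eq_of_smul_eq_smul (α := Ω) fun ω => ?_
    obtain ⟨a, rfl⟩ := hNtr.exists_smul_eq α ω
    have := hTk (p ^ j) (Additive.ofMul a)
    rw [h1] at this
    simp only [toMul_ofMul] at this
    have e : (a : G) = h ^ p ^ j * a * (h ^ p ^ j)⁻¹ := this
    rw [one_smul, Subgroup.smul_def, ← mul_smul, mul_inv_eq_iff_eq_mul.1 e.symm, mul_smul]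
    congr 1
    exact pow_mem (show h ∈ stabilizer G α from hfix) _
  -- the telescoping product
  have hsum : ∀ k : ℕ, g ^ k =
      ((Additive.toMul ((∑ i ∈ Finset.range k, T ^ i) (Additive.ofMul n)) : N) : G) * h ^ k := by
    intro k
    induction k with
    | zero => simp
    | succ k ih =>
      have e : (∑ i ∈ Finset.range (k + 1), T ^ i) (Additive.ofMul n) =
          (∑ i ∈ Finset.range k, T ^ i) (Additive.ofMul n) + (T ^ k) (Additive.ofMul n) := by
        rw [Finset.sum_range_succ]; rfl
      rw [e, toMul_add, Subgroup.coe_mul, hTk, pow_succ g, ih, toMul_ofMul, hg', pow_succ]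
      group
  rw [hsum, hhj, h2, mul_one]
  rfl

end Cfsg.Agent.H79
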