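import Mathlib

/-!
An irreducible cyclic linear group of prime order over the field with `p` elements, and its
semilinear normaliser.
-/

set_option autoImplicit false

namespace Cfsg.Agent.H79

open Polynomial

variable {p : ℕ} [Fact p.Prime] {V : Type*} [AddCommGroup V] [Module (ZMod p) V]
  [Module.Finite (ZMod p) V] [Nontrivial V]

/-- The minimal polynomial of an operator without proper invariant subspaces. -/
theorem minpoly_irreducible_of_irreducible (T : Module.End (ZMod p) V)
    (hirr : ∀ W : Submodule (ZMod p) V, (∀ w ∈ W, T w ∈ W) → W = ⊥ ∨ W = ⊤) :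
    Irreducible (minpoly (ZMod p) T) ∧
      (minpoly (ZMod p) T).natDegree = Module.finrank (ZMod p) V := by
  have hint : IsIntegral (ZMod p) T := LinearMap.isIntegral T
  set f := minpoly (ZMod p) T with hf
  have hf0 : f ≠ 0 := minpoly.ne_zero hint
  constructor
  · refine ⟨minpoly.not_isUnit _ _, fun g h hgh => ?_⟩
    by_contra hc
    push Not at hc
    obtain ⟨hgu, hhu⟩ := hc
    have hg0 : g ≠ 0 := left_ne_zero_of_mul (hgh ▸ hf0)
    have hh0 : h ≠ 0 := right_ne_zero_of_mul (hgh ▸ hf0)
    have hdeg : f.natDegree = g.natDegree + h.natDegree := by rw [hgh, natDegree_mul hg0 hh0]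
    have hgd : 0 < g.natDegree := Nat.pos_of_ne_zero fun h0 => hgu (by
      rw [isUnit_iff_degree_eq_zero, degree_eq_natDegree hg0, h0]; rfl)
    have hhd : 0 < h.natDegree := Nat.pos_of_ne_zero fun h0 => hhu (by
      rw [isUnit_iff_degree_eq_zero, degree_eq_natDegree hh0, h0]; rfl)
    have hgT : aeval T g ≠ 0 := fun h0 =>
      absurd (natDegree_le_of_dvd (minpoly.dvd (ZMod p) T h0) hg0) (by rw [← hf, hdeg]; omega)
    have hhT : aeval T h ≠ 0 := fun h0 =>
      absurd (natDegree_le_of_dvd (minpoly.dvd (ZMod p) T h0) hh0) (by rw [← hf, hdeg]; omega)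
    rcases hirr (LinearMap.ker (aeval T g)) (fun w hw => by
      rw [LinearMap.mem_ker] at hw ⊢
      have hcomm : aeval T g * T = T * aeval T g := by
        simpa using congrArg (aeval T) (mul_comm g X)
      rw [← Module.End.mul_apply, hcomm, Module.End.mul_apply, hw, map_zero]) with hk | hk
    · apply hhT
      refine LinearMap.ext fun v => ?_
      have : aeval T g (aeval T h v) = 0 := by
        rw [← Module.End.mul_apply, ← map_mul, ← hgh, hf, minpoly.aeval]; rfl
      have h1 : aeval T h v ∈ LinearMap.ker (aeval T g) := this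
      rw [hk, Submodule.mem_bot] at h1
      exact h1
    · exact hgT (LinearMap.ker_eq_top.1 hk)
  · apply le_antisymm
    · rw [← LinearMap.charpoly_natDegree T]
      exact natDegree_le_of_dvd (LinearMap.minpoly_dvd_charpoly T)
        (LinearMap.charpoly_monic T).ne_zero
    · obtain ⟨v, hv⟩ := exists_ne (0 : V)
      let φ : (ZMod p)[X] →ₗ[ZMod p] V :=
        (LinearMap.applyₗ (R := ZMod p) v).comp (aeval T).toLinearMap
      have hφ : ∀ P, φ P = aeval T P v := fun P => rfl
      have htop : (degreeLT (ZMod p) f.natDegree).map φ = ⊤ := by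
        have hall : LinearMap.range φ = (degreeLT (ZMod p) f.natDegree).map φ := by
          refine le_antisymm ?_ (LinearMap.map_le_range)
          rintro _ ⟨P, rfl⟩
          refine ⟨P %ₘ f, ?_, ?_⟩
          · rw [SetLike.mem_coe, mem_degreeLT, ← degree_eq_natDegree hf0]
            exact degree_modByMonic_lt P (minpoly.monic hint)
          · rw [hφ, hφ]
            conv_rhs => rw [← modByMonic_add_div P f]
            simp [hf]
        rw [← hall]
        refine (hirr _ ?_).resolve_left ?_
        · rintro _ ⟨P, rfl⟩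
          exact ⟨X * P, by rw [hφ, hφ, map_mul, aeval_X, Module.End.mul_apply]⟩
        · intro h0
          have : φ 1 ∈ LinearMap.range φ := ⟨1, rfl⟩
          rw [h0, Submodule.mem_bot, hφ, map_one, Module.End.one_apply] at this
          exact hv this
      haveI : Module.Finite (ZMod p) (degreeLT (ZMod p) f.natDegree) :=
        Module.Finite.equiv (degreeLTEquiv (ZMod p) f.natDegree).symm
      have := Submodule.finrank_map_le φ (degreeLT (ZMod p) f.natDegree)
      rw [htop, finrank_top, LinearEquiv.finrank_eq (degreeLTEquiv (ZMod p) f.natDegree),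
        Module.finrank_fin_fun] at this
      exact this

/-- For an irreducible operator of prime order `q`: `q` is a primitive divisor of `p ^ d - 1`, and
semilinear conjugates correspond to powers of `p`. -/
theorem cyclic_irreducible_facts {q : ℕ} [Fact q.Prime] (T : Module.End (ZMod p) V)
    (hTq : T ^ q = 1) (hT1 : T ≠ 1)
    (hirr : ∀ W : Submodule (ZMod p) V, (∀ w ∈ W, T w ∈ W) → W = ⊥ ∨ W = ⊤) :
    (∀ i : ℕ, 0 < i → i < Module.finrank (ZMod p) V → ¬ q ∣ p ^ i - 1) ∧
      ∀ (U : (Module.End (ZMod p) V)ˣ) (a : ℕ),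
        (U : Module.End (ZMod p) V) * T = T ^ a * U → ∃ k : ℕ, (a : ZMod q) = (p : ZMod q) ^ k := by
  have hp : p.Prime := Fact.out
  obtain ⟨hi, hdeg⟩ := minpoly_irreducible_of_irreducible T hirr
  set f := minpoly (ZMod p) T with hf
  haveI : Fact (Irreducible f) := ⟨hi⟩
  have hfq : f ∣ X ^ q - 1 := minpoly.dvd _ _ (by simp [hTq])
  constructor
  · intro i hi0 hid hdvd
    have h1 : f ∣ X ^ (Nat.card (ZMod p)) ^ i - X := by
      rw [Nat.card_zmod]
      have h2 : (X ^ q - 1 : (ZMod p)[X]) ∣ X ^ (p ^ i - 1) - 1 := by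
        obtain ⟨c, hc⟩ := hdvd
        rw [hc, pow_mul]
        exact sub_one_dvd_pow_sub_one _ c
      have h3 : (X ^ (p ^ i - 1) - 1 : (ZMod p)[X]) ∣ X ^ p ^ i - X := ⟨X, by
        rw [sub_mul, one_mul, ← pow_succ, Nat.sub_add_cancel (Nat.one_le_pow _ _ hp.pos)]⟩
      exact (hfq.trans h2).trans h3
    have := Nat.le_of_dvd hi0 (hi.natDegree_dvd_of_dvd_X_pow_card_pow_sub_X h1)
    omega
  · intro U a hU
    have hfa : aeval (T ^ a) f = 0 := by
      have key : ∀ P : (ZMod p)[X],
          (U : Module.End (ZMod p) V) * aeval T P = aeval (T ^ a) P * U := by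
        intro P
        induction P using Polynomial.induction_on' with
        | add P Q hP hQ => rw [map_add, map_add, mul_add, add_mul, hP, hQ]
        | monomial n c =>
          rw [← C_mul_X_pow_eq_monomial, map_mul, map_mul, aeval_C, aeval_C, map_pow, map_pow,
            aeval_X, aeval_X, ← mul_assoc, ← Algebra.commutes, mul_assoc, mul_assoc]
          congr 1
          exact (SemiconjBy.pow_right (show SemiconjBy (U : Module.End (ZMod p) V) T (T ^ a) from hU)
            n)
      have := key f
      rw [hf, minpoly.aeval, mul_zero] at this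
      exact (Units.mul_left_eq_zero U).1 this.symm
    have hdvd : f ∣ f.comp (X ^ a) := minpoly.dvd _ _ (by simpa [aeval_comp] using hfa)
    set ζ := AdjoinRoot.root f
    have hζa : aeval (ζ ^ a) f = 0 := by
      obtain ⟨c, hc⟩ := hdvd
      have := congrArg (aeval ζ) hc
      rw [aeval_comp, map_pow, aeval_X, map_mul] at this
      rw [this, AdjoinRoot.aeval_eq, AdjoinRoot.mk_self, zero_mul]
    let g : AdjoinRoot f →ₐ[ZMod p] AdjoinRoot f := AdjoinRoot.liftAlgHom f (Algebra.ofId _ _) (ζ ^ a) hζa
    haveI : Module.Finite (ZMod p) (AdjoinRoot f) := (minpoly.monic (LinearMap.isIntegral T)).finite_adjoinRoot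
    haveI : Finite (AdjoinRoot f) := Module.finite_of_finite (ZMod p)
    obtain ⟨k, hk⟩ := FiniteField.exists_forall_apply_eq_pow (ZMod p) p (AdjoinRoot f)
      (AlgEquiv.ofBijective g (Finite.injective_iff_bijective.1 g.toRingHom.injective))
    refine ⟨k, ?_⟩
    have hζk : ζ ^ a = ζ ^ p ^ k := by
      have := hk ζ
      rw [Nat.card_zmod] at this
      rw [← this]
      exact (AdjoinRoot.liftAlgHom_root f _ (ζ ^ a) hζa).symm
    have hζq : ζ ^ q = 1 := by
      obtain ⟨c, hc⟩ := hfq
      have := congrArg (aeval ζ) hc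
      have hζf : aeval ζ f = 0 := (AdjoinRoot.aeval_eq f).trans AdjoinRoot.mk_self
      rw [map_mul, hζf, zero_mul, map_sub, map_pow, aeval_X, map_one, sub_eq_zero] at this
      exact this
    have hζ1 : ζ ≠ 1 := by
      intro h1
      apply hT1
      have : AdjoinRoot.mk f (X - 1) = 0 := by
        rw [map_sub, AdjoinRoot.mk_X, map_one, ← h1, sub_self]
      rw [AdjoinRoot.mk_eq_zero] at this
      obtain ⟨c, hc⟩ := this
      have h2 := congrArg (aeval T) hc
      rw [map_mul, hf, minpoly.aeval, zero_mul, map_sub, aeval_X, map_one, sub_eq_zero] at h2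
      exact h2
    have hord : orderOf ζ = q := orderOf_eq_prime hζq hζ1
    have hz : ζ ≠ 0 := by
      intro h0
      rw [h0, zero_pow (Fact.out : q.Prime).ne_zero] at hζq
      exact zero_ne_one hζq
    let u : (AdjoinRoot f)ˣ := Units.mk0 ζ hz
    have hu : orderOf u = q := by rw [← orderOf_units]; exact hord
    have h2 : u ^ a = u ^ p ^ k := Units.ext (by simpa [u] using hζk)
    rw [pow_eq_pow_iff_modEq, hu, ← ZMod.natCast_eq_natCast_iff] at h2
    rw [h2, Nat.cast_pow]

end Cfsg.Agent.H79
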