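import Cfsg.Agent.H79.ExtremelyPrimitive
import Cfsg.Agent.H79.CyclicIrreducible
import Cfsg.Agent.H19.MinimalNormal
import Cfsg.Agent.H21.Fpf

/-!
Extremely primitive groups of affine type, in particular the solvable ones.
-/

set_option autoImplicit false

namespace Cfsg.Agent.H79

open MulAction Subgroup

variable {G : Type*} [Group G] [Finite G] {Ω : Type*} [MulAction G Ω] [Finite Ω]
  [FaithfulSMul G Ω] [IsPreprimitive G Ω]

theorem affine_orbit_eq (hH : ∀ α : Ω, stabilizer G α ≠ ⊥) (hep : StabPrimitive G Ω) {α : Ω}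
    {M : Subgroup G} (hM : M ≠ ⊥) (hMle : M ≤ stabilizer G α)
    (hMn : stabilizer G α ≤ Subgroup.normalizer (M : Set G)) (ω : Ω) :
    orbit M ω = orbit (stabilizer G α) ω := by
  haveI : (M.subgroupOf (stabilizer G α)).Normal :=
    (Subgroup.normal_subgroupOf_iff_le_normalizer hMle).2 hMn
  apply Set.Subset.antisymm
  · rintro _ ⟨m, rfl⟩
    exact ⟨⟨m, hMle m.2⟩, rfl⟩
  rcases eq_or_ne ω α with rfl | hω
  · rintro _ ⟨k, rfl⟩
    exact ⟨1, (one_smul M ω).trans (mem_stabilizer_iff.1 k.2).symm⟩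
  have hne : M.subgroupOf (stabilizer G α) ≠ ⊥ := by
    rw [Ne, Subgroup.subgroupOf_eq_bot, disjoint_iff, inf_eq_left.2 hMle]
    exact hM
  rw [← normal_orbit_eq hH hep hne hω]
  rintro _ ⟨m, rfl⟩
  exact ⟨⟨((m : stabilizer G α) : G), m.2⟩, rfl⟩

/-- A normal subgroup of a stabiliser normalises no proper nontrivial subgroup of a regular
abelian normal subgroup. -/
theorem affine_normalized_eq_bot_or_self (hH : ∀ α : Ω, stabilizer G α ≠ ⊥)
    (hep : StabPrimitive G Ω) (N : Subgroup G) [N.Normal] (hNc : ∀ a ∈ N, ∀ b ∈ N, a * b = b * a)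
    (hNtr : IsPretransitive N Ω) (hNreg : ∀ ω : Ω, stabilizer N ω = ⊥) {α : Ω} {M : Subgroup G}
    (hM : M ≠ ⊥) (hMle : M ≤ stabilizer G α)
    (hMn : stabilizer G α ≤ Subgroup.normalizer (M : Set G)) (L : Subgroup G) (hLN : L ≤ N)
    (hML : M ≤ Subgroup.normalizer (L : Set G)) : L = ⊥ ∨ L = N := by
  have hfree : ∀ a ∈ N, ∀ b ∈ N, ∀ x : Ω, a • x = b • x → a = b := by
    intro a ha b hb x h
    have hm : (⟨b⁻¹ * a, N.mul_mem (N.inv_mem hb) ha⟩ : N) ∈ stabilizer N x := by
      show (b⁻¹ * a) • x = x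
      rw [mul_smul, inv_smul_eq_iff]; exact h
    rw [hNreg x, Subgroup.mem_bot] at hm
    exact (inv_mul_eq_one.1 (congrArg Subtype.val hm)).symm
  have hSL : ∀ h ∈ stabilizer G α, ∀ l ∈ L, h * l * h⁻¹ ∈ L := by
    intro h hh l hl
    have hx : h • l • α ∈ orbit (stabilizer G α) (l • α) := ⟨⟨h, hh⟩, rfl⟩
    rw [← affine_orbit_eq hH hep hM hMle hMn] at hx
    obtain ⟨⟨m, hm⟩, hmx⟩ := hx
    have hl' : m * l * m⁻¹ ∈ L := (Subgroup.mem_normalizer_iff.1 (hML hm) l).1 hl
    have e : (h * l * h⁻¹) • α = (m * l * m⁻¹) • α := by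
      rw [mul_smul, mul_smul, mul_smul, mul_smul,
        inv_smul_eq_iff.2 (mem_stabilizer_iff.1 hh).symm,
        inv_smul_eq_iff.2 (mem_stabilizer_iff.1 (hMle hm)).symm]
      exact hmx.symm
    rw [hfree _ ((inferInstance : N.Normal).conj_mem l (hLN hl) h) _
      ((inferInstance : N.Normal).conj_mem l (hLN hl) m) α e]
    exact hl'
  haveI hLn : L.Normal := ⟨fun l hl g => by
    obtain ⟨⟨n, hn⟩, hn'⟩ := hNtr.exists_smul_eq α (g • α)
    have hh : n⁻¹ * g ∈ stabilizer G α := by
      rw [mem_stabilizer_iff, mul_smul, inv_smul_eq_iff]; exact hn'.symm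
    have hl1 := hSL _ hh l hl
    have e : g * l * g⁻¹ = n * (n⁻¹ * g * l * (n⁻¹ * g)⁻¹) * n⁻¹ := by group
    rw [e, hNc n hn _ (hLN hl1), mul_inv_cancel_right]
    exact hl1⟩
  rcases eq_or_ne L ⊥ with h | h
  · exact Or.inl h
  right
  refine le_antisymm hLN fun n hn => ?_
  have htr : IsPretransitive L Ω := by
    apply IsQuasiPreprimitive.isPretransitive_of_normal
    intro hfix
    apply h
    refine normal_eq_bot_of_le_stabilizer (K := L) (α := α) fun l hl => ?_
    exact (hfix.ge (Set.mem_univ α)) ⟨l, hl⟩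
  obtain ⟨⟨l, hl⟩, hl'⟩ := htr.exists_smul_eq α (n • α)
  exact hfree l (hLN hl) n hn α hl' ▸ hl

/-- Linear facts about the cyclic normal subgroup of an affine stabiliser. -/
theorem affine_cyclic_facts_aux {q p d : ℕ} [Fact p.Prime] [Fact q.Prime] {V : Type*}
    [AddCommGroup V] [Finite V] [Module (ZMod p) V] (hcard : Nat.card V = p ^ d) (hd : d ≠ 0)
    {A : Type*} [Group A] (ρ : A →* AddMonoid.End V) (m : A) (hmq : m ^ q = 1) (hm1 : ρ m ≠ 1)
    (hirr : ∀ W : AddSubgroup V, (∀ w ∈ W, ρ m w ∈ W) → W = ⊥ ∨ W = ⊤) :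
    (∀ i : ℕ, 0 < i → i < d → ¬ q ∣ p ^ i - 1) ∧
      ∀ (h : A) (a : ℕ), h * m * h⁻¹ = m ^ a → ∃ k : ℕ, (a : ZMod q) = (p : ZMod q) ^ k := by
  haveI : Module.Finite (ZMod p) V := Module.Finite.of_finite
  have hdim : Module.finrank (ZMod p) V = d := by
    have h : Nat.card V = Nat.card (ZMod p) ^ Module.finrank (ZMod p) V :=
      Module.natCard_eq_pow_finrank
    rw [Nat.card_zmod, hcard] at h
    exact (Nat.pow_right_injective (Fact.out : p.Prime).two_le h).symm
  haveI : Nontrivial V := Finite.one_lt_card_iff_nontrivial.1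
    (hcard ▸ Nat.one_lt_pow hd (Fact.out : p.Prime).one_lt)
  let L : A →* Module.End (ZMod p) V :=
    { toFun := fun h => AddMonoidHom.toZModLinearMap p (ρ h)
      map_one' := by rw [map_one]; rfl
      map_mul' := fun a c => by rw [map_mul]; rfl }
  have h1 : L m ≠ 1 := fun h => hm1 (AddMonoidHom.ext fun v =>
    congrArg (fun f : Module.End (ZMod p) V => f v) h)
  have h2 : ∀ W : Submodule (ZMod p) V, (∀ w ∈ W, L m w ∈ W) → W = ⊥ ∨ W = ⊤ := by
    intro W hW
    rcases hirr W.toAddSubgroup hW with h | h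
    · left; ext v; exact Iff.trans (SetLike.ext_iff.1 h v) (by simp)
    · right; ext v; exact Iff.trans (SetLike.ext_iff.1 h v) (by simp)
  obtain ⟨c1, c2⟩ := cyclic_irreducible_facts (L m) (by rw [← map_pow, hmq, map_one]) h1 h2
  rw [hdim] at c1
  refine ⟨c1, fun h a ha => c2 (L.toHomUnits h) a ?_⟩
  show L h * L m = L m ^ a * L h
  rw [← map_pow, ← map_mul, ← map_mul, ← ha, inv_mul_cancel_right]

theorem solvable_extremely_primitive [Group.IsSolvable G] (p d : ℕ) (hp : p.Prime)
    (hcard : Nat.card Ω = p ^ d) (hH : ∀ α : Ω, stabilizer G α ≠ ⊥) (hep : StabPrimitive G Ω)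
    (α : Ω) :
    ∃ q : ℕ, q.Prime ∧ (∀ ω : Ω, ω ≠ α → Nat.card (orbit (stabilizer G α) ω) = q) ∧
      q ∣ p ^ d - 1 ∧ (∀ i : ℕ, 0 < i → i < d → ¬ q ∣ p ^ i - 1) ∧
      ∃ T : Subgroup G, T ≤ stabilizer G α ∧
        stabilizer G α ≤ Subgroup.normalizer (T : Set G) ∧ Nat.card T = q ∧
        (∃ h : G, stabilizer G α = T ⊔ zpowers h) ∧ Nat.card (stabilizer G α) ∣ q * d := by
  classical
  haveI : Fact p.Prime := ⟨hp⟩
  haveI : Nontrivial Ω := by
    by_contra hn
    rw [not_nontrivial_iff_subsingleton] at hn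
    exact hH α ((Subgroup.eq_bot_iff_forall _).2 fun g _ =>
      FaithfulSMul.eq_of_smul_eq_smul (α := Ω) fun x => Subsingleton.elim _ _)
  have hd : d ≠ 0 := by
    rintro rfl
    have := Finite.one_lt_card_iff_nontrivial.2 (inferInstance : Nontrivial Ω)
    rw [hcard] at this; simp at this
  obtain ⟨ω₀, hω₀⟩ := exists_ne α
  -- the regular normal subgroup
  have hGne : (⊤ : Subgroup G) ≠ ⊥ := fun h => hH α (le_bot_iff.1 (h ▸ le_top))
  obtain ⟨N, r, hNn, -, hN1, hNcomm, hr, -, hNr⟩ :=
    Cfsg.Agent.H19.exists_normal_elementary_le (⊤ : Subgroup G) inferInstance hGne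
  have hNc : ∀ a ∈ N, ∀ b ∈ N, a * b = b * a :=
    fun a ha b hb => congrArg Subtype.val (hNcomm.is_comm.comm ⟨a, ha⟩ ⟨b, hb⟩)
  haveI htr : IsPretransitive N Ω := by
    apply IsQuasiPreprimitive.isPretransitive_of_normal
    intro hfix
    exact hN1 (normal_eq_bot_of_le_stabilizer (α := α) fun l hl =>
      (hfix.ge (Set.mem_univ α)) ⟨l, hl⟩)
  have hNreg : ∀ ω : Ω, stabilizer N ω = ⊥ := by
    intro ω
    refine (Subgroup.eq_bot_iff_forall _).2 fun n hn => Subtype.ext ?_
    refine FaithfulSMul.eq_of_smul_eq_smul (α := Ω) fun x => ?_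
    obtain ⟨a, rfl⟩ := exists_smul_eq N ω x
    show (n : G) • (a : G) • ω = (1 : G) • (a : G) • ω
    rw [one_smul, ← mul_smul, hNc n n.2 a a.2, mul_smul, show (n : G) • ω = ω from hn]
  have hNcard : Nat.card N = p ^ d := by
    rw [← hcard, ← index_stabilizer_of_transitive N α, hNreg α, Subgroup.index_bot]
  have hrp : r = p := by
    haveI := Fact.mk hr
    haveI : Nontrivial N := (Subgroup.nontrivial_iff_ne_bot N).2 hN1
    obtain ⟨x, hx⟩ := exists_ne (1 : N)
    have h1 : orderOf x = r :=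
      orderOf_eq_prime (Subtype.ext (by simpa using hNr x x.2)) hx
    have h2 : r ∣ p ^ d := hNcard ▸ h1 ▸ orderOf_dvd_natCard x
    exact (Nat.prime_dvd_prime_iff_eq hr hp).1 (hr.dvd_of_dvd_pow h2)
  subst hrp
  -- the normal subgroup `M` of the stabiliser
  haveI : Group.IsSolvable (stabilizer G α) := inferInstance
  haveI : Nontrivial (stabilizer G α) := (Subgroup.nontrivial_iff_ne_bot _).2 (hH α)
  obtain ⟨M, q, hMn, -, hM1, hMcomm, hq, -, hMq⟩ := Cfsg.Agent.H19.exists_normal_elementary_le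
    (⊤ : Subgroup (stabilizer G α)) inferInstance top_ne_bot
  haveI := Fact.mk hq
  have hMc : ∀ a ∈ M, ∀ b ∈ M, a * b = b * a :=
    fun a ha b hb => congrArg Subtype.val (hMcomm.is_comm.comm ⟨a, ha⟩ ⟨b, hb⟩)
  have horb : ∀ ω : Ω, ω ≠ α → Nat.card (orbit (stabilizer G α) ω) = Nat.card M :=
    fun ω hω => card_orbit_eq_card hH hep hω hM1 hMc
  -- conjugation on `N`
  letI : CommGroup N := { (inferInstance : Group N) with
    mul_comm := fun a b => Subtype.ext (hNc a a.2 b b.2) }
  letI : MulDistribMulAction (stabilizer G α) N :=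
    MulDistribMulAction.compHom N ((MulAut.conjNormal : G →* MulAut N).comp (stabilizer G α).subtype)
  have hfpf : ∀ m ∈ M, m ≠ 1 → ∀ n : N, m • n = n → n = 1 := by
    intro m hm hm1 n hn
    have h1 : (m : G) * n * (m : G)⁻¹ = n := congrArg Subtype.val hn
    by_contra hne
    have hnα : (n : G) • α ≠ α := fun h => hne (by
      have : n ∈ stabilizer N α := h
      rwa [hNreg α, Subgroup.mem_bot] at this)
    apply hm1
    refine abelian_normal_free hH hep hMc hnα hm ?_
    show (m : G) • (n : G) • α = (n : G) • α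
    rw [← mul_smul, mul_inv_eq_iff_eq_mul.1 h1, mul_smul, mem_stabilizer_iff.1 m.2]
  -- `M` has order `q`
  obtain ⟨m, hm, hm1⟩ := Subgroup.bot_or_exists_ne_one M |>.resolve_left hM1
  have hmo : orderOf m = q := orderOf_eq_prime (hMq m hm) hm1
  have hMz : M = zpowers m := by
    refine le_antisymm (fun b hb => ?_) (zpowers_le.2 hm)
    by_contra hbm
    have hb1 : b ≠ 1 := fun h => hbm (h ▸ one_mem _)
    have hv : ∀ v : N, v ^ q = 1 := by
      intro v
      refine Cfsg.Agent.H21.pow_eq_one_of_commute (a := b) (b := m) (hMc b hb m hm) (hMq b hb)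
        (hMq m hm) (fun i _ w hw => hfpf _ (mul_mem hb (pow_mem hm i)) ?_ w hw)
        (fun j hj0 hjq w hw => hfpf _ (pow_mem hm j) ?_ w hw) v
      · intro h
        exact hbm (by rw [eq_inv_of_mul_eq_one_left h]; exact inv_mem (pow_mem (mem_zpowers m) i))
      · intro h
        exact absurd (Nat.le_of_dvd hj0 (hmo ▸ orderOf_dvd_of_pow_eq_one h)) (not_le.2 hjq)
    haveI : Nontrivial N := (Subgroup.nontrivial_iff_ne_bot N).2 hN1
    obtain ⟨x, hx⟩ := exists_ne (1 : N)
    have h1 : orderOf x = r := by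
      haveI := Fact.mk hr
      exact orderOf_eq_prime (Subtype.ext (by simpa using hNr x x.2)) hx
    have h2 : orderOf x = q := orderOf_eq_prime (hv x) hx
    have hqr : q = r := h2.symm.trans h1
    letI : MulDistribMulAction M N := MulDistribMulAction.compHom N M.subtype
    have hmod : Nat.card N ≡ 1 [MOD q] := Cfsg.Agent.H21.card_modEq_one (A := M) (V := N)
      (fun a => ⟨1, Subtype.ext (by simpa using hMq a a.2)⟩)
      (fun v hv' => hfpf m hm hm1 v (hv' ⟨m, hm⟩))
    rw [hNcard, ← hqr] at hmod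
    have hq0 : q ^ d ≡ 0 [MOD q] := Nat.modEq_zero_iff_dvd.2 (dvd_pow_self q hd)
    have := (hmod.symm.trans hq0)
    rw [Nat.modEq_zero_iff_dvd, Nat.dvd_one] at this
    exact hq.ne_one this
  have hMcard : Nat.card M = q := by rw [hMz, Nat.card_zpowers, hmo]
  have hqd : q ∣ r ^ d - 1 := by
    rw [← hcard, ← hMcard]; exact card_dvd_card_sub_one hH hep hMc
  set T : Subgroup G := M.map (stabilizer G α).subtype with hT
  have hTle : T ≤ stabilizer G α := Subgroup.map_subtype_le M
  have hTn : stabilizer G α ≤ Subgroup.normalizer (T : Set G) := by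
    apply (Subgroup.normal_subgroupOf_iff_le_normalizer hTle).1
    rw [hT, Subgroup.subgroupOf, Subgroup.comap_map_eq_self_of_injective Subtype.val_injective]
    exact hMn
  have hTne : T ≠ ⊥ := by
    rw [hT, Ne, Subgroup.map_eq_bot_iff_of_injective _ Subtype.val_injective]; exact hM1
  have hTcard : Nat.card T = q := by
    rw [hT, Subgroup.card_map_of_injective Subtype.val_injective, hMcard]
  -- linear facts
  let ρ : stabilizer G α →* AddMonoid.End (Additive N) :=
    { toFun := fun h =>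
        { toFun := fun x => Additive.ofMul (h • Additive.toMul x)
          map_zero' := by simp
          map_add' := fun x y => by simp }
      map_one' := AddMonoidHom.ext fun x => by
        show Additive.ofMul ((1 : stabilizer G α) • Additive.toMul x) = x
        rw [one_smul]; rfl
      map_mul' := fun a b => AddMonoidHom.ext fun x => by
        show Additive.ofMul ((a * b) • Additive.toMul x) = Additive.ofMul (a • b • Additive.toMul x)
        rw [mul_smul] }
  have hexp : ∀ x : Additive N, r • x = 0 := fun x => Additive.toMul.injective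
    (Subtype.ext (by simpa using hNr _ (Additive.toMul x).2))
  have hρm : ρ m ≠ 1 := by
    intro h
    haveI : Nontrivial N := (Subgroup.nontrivial_iff_ne_bot N).2 hN1
    obtain ⟨x, hx⟩ := exists_ne (1 : N)
    exact hx (hfpf m hm hm1 x
      (congrArg (fun f : AddMonoid.End (Additive N) => Additive.toMul (f (Additive.ofMul x))) h))
  obtain ⟨hprim', hsemi⟩ := @affine_cyclic_facts_aux q r d _ _ (Additive N) _ _
    (AddCommGroup.zmodModule hexp) ((Nat.card_congr Additive.toMul).trans hNcard) hd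
    (stabilizer G α) _ ρ m (hMq m hm) hρm (fun W hW => by
      let L : Subgroup G := (AddSubgroup.toSubgroup' W).map N.subtype
      have hL : ∀ x : N, (x : G) ∈ L ↔ Additive.ofMul x ∈ W := fun x => by
        constructor
        · rintro ⟨y, hy, hyx⟩
          exact Subtype.ext hyx ▸ hy
        · exact fun h => ⟨x, h, rfl⟩
      have hTL : T ≤ Subgroup.normalizer (L : Set G) := by
        have hmap : ∀ x ∈ L, (m : G) * x * (m : G)⁻¹ ∈ L := by
          rintro _ ⟨x, hx, rfl⟩
          exact (hL (m • x)).2 (hW _ hx)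
        rw [hT, hMz, MonoidHom.map_zpowers, zpowers_le, Subgroup.mem_normalizer_iff]
        intro x
        refine ⟨hmap x, fun hx => ?_⟩
        let f : L → L := fun y => ⟨(m : G) * y * (m : G)⁻¹, hmap y y.2⟩
        have hf : Function.Surjective f := Finite.injective_iff_surjective.1 fun a b hab =>
          Subtype.ext (by simpa [f] using hab)
        obtain ⟨⟨y, hy⟩, hy'⟩ := hf ⟨_, hx⟩
        have : y = x := by simpa [f] using hy'
        exact this ▸ hy
      rcases affine_normalized_eq_bot_or_self hH hep N hNc htr hNreg hTne hTle hTn L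
        (Subgroup.map_subtype_le _) hTL with h | h
      · left
        refine (AddSubgroup.eq_bot_iff_forall _).2 fun w hw => ?_
        have := (hL (Additive.toMul w)).2 hw
        rw [h, Subgroup.mem_bot, OneMemClass.coe_eq_one] at this
        exact Additive.toMul.injective this
      · right
        exact eq_top_iff.2 fun w _ => (hL (Additive.toMul w)).1 (h.symm ▸ (Additive.toMul w).2))
  refine ⟨q, hq, fun ω hω => (horb ω hω).trans hMcard, hqd, hprim', T, hTle, hTn, hTcard, ?_⟩
  -- the action of the stabiliser on `M`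
  have hex : ∀ h : stabilizer G α, ∃ a : ℕ, h * m * h⁻¹ = m ^ a := by
    intro h
    have : h * m * h⁻¹ ∈ zpowers m := hMz ▸ hMn.conj_mem m hm h
    rw [← mem_powers_iff_mem_zpowers] at this
    obtain ⟨a, ha⟩ := this
    exact ⟨a, ha.symm⟩
  choose a ha using hex
  have hcast : ∀ (x y : ℕ), m ^ x = m ^ y → (x : ZMod q) = y := fun x y h => by
    rw [ZMod.natCast_eq_natCast_iff, ← hmo, ← pow_eq_pow_iff_modEq]; exact h
  let ψ : stabilizer G α →* ZMod q :=
    { toFun := fun h => (a h : ZMod q)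
      map_one' := by
        have := hcast (a 1) 1 (by rw [← ha, pow_one]; simp)
        simpa using this
      map_mul' := fun x y => by
        rw [← Nat.cast_mul]
        apply hcast
        rw [← ha, pow_mul, ← ha, conj_pow, ← ha]
        group }
  have hker : ψ.toHomUnits.ker = M := by
    ext h
    rw [MonoidHom.mem_ker]
    constructor
    · intro hh
      have h1 : (a h : ZMod q) = ((1 : ℕ) : ZMod q) := by
        rw [Nat.cast_one]; exact congrArg Units.val hh
      rw [ZMod.natCast_eq_natCast_iff, ← hmo, ← pow_eq_pow_iff_modEq, pow_one, ← ha,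
        mul_inv_eq_iff_eq_mul] at h1
      rw [← abelian_normal_centralizer hH hep hω₀ hM1 hMc, Subgroup.mem_centralizer_iff]
      intro b hb
      rw [hMz] at hb
      obtain ⟨k, rfl⟩ := hb
      exact ((show Commute h m from h1).zpow_right k).symm
    · intro hh
      apply Units.ext
      have := hcast (a h) 1 (by rw [← ha, pow_one, hMc h hh m hm, mul_inv_cancel_right])
      show (a h : ZMod q) = 1
      simpa using this
  -- powers of `r`
  have hr0 : (r : ZMod q) ≠ 0 := by
    rw [Ne, CharP.cast_eq_zero_iff (ZMod q) q]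
    intro h
    have := (Nat.prime_dvd_prime_iff_eq hq hr).1 h
    subst this
    have h1 : q ∣ q ^ d := dvd_pow_self q hd
    have := Nat.dvd_sub h1 hqd
    rw [Nat.sub_sub_self (Nat.one_le_pow _ _ hq.pos), Nat.dvd_one] at this
    exact hq.ne_one this
  let u : (ZMod q)ˣ := Units.mk0 (r : ZMod q) hr0
  have huk : ∀ i : ℕ, u ^ i = 1 ↔ q ∣ r ^ i - 1 := by
    intro i
    rw [← Units.val_inj, Units.val_pow_eq_pow_val, Units.val_one, ← CharP.cast_eq_zero_iff (ZMod q) q,
      Nat.cast_sub (Nat.one_le_pow _ _ hr.pos), Nat.cast_pow, Nat.cast_one, sub_eq_zero]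
    rfl
  have huord : orderOf u = d := by
    refine (orderOf_eq_iff (Nat.pos_of_ne_zero hd)).2 ⟨(huk d).2 hqd, fun i hi hi0 h => ?_⟩
    exact hprim' i hi0 hi ((huk i).1 h)
  have hrange : ψ.toHomUnits.range ≤ zpowers u := by
    rintro _ ⟨h, rfl⟩
    obtain ⟨k, hk⟩ := hsemi h (a h) (ha h)
    exact ⟨(k : ℤ), Units.ext (by simpa [u, ψ] using hk.symm)⟩
  constructor
  · haveI : IsCyclic ψ.toHomUnits.range :=
      isCyclic_of_injective _ (Subgroup.inclusion_injective hrange)
    obtain ⟨⟨_, g, rfl⟩, hg⟩ := IsCyclic.exists_generator (α := ψ.toHomUnits.range)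
    refine ⟨(g : G), le_antisymm (fun x hx => ?_) (sup_le hTle (zpowers_le.2 g.2))⟩
    obtain ⟨k, hk⟩ := hg ⟨_, ⟨⟨x, hx⟩, rfl⟩⟩
    have hmem : (⟨x, hx⟩ : stabilizer G α) * (g ^ k)⁻¹ ∈ M := by
      rw [← hker, MonoidHom.mem_ker, map_mul, map_inv, map_zpow, mul_inv_eq_one]
      exact (congrArg Subtype.val hk).symm
    have h1 : x = ((⟨x, hx⟩ : stabilizer G α) * (g ^ k)⁻¹ : stabilizer G α) * (g : G) ^ k := by
      simp
    rw [h1]
    exact mul_mem (Subgroup.mem_sup_left (Subgroup.mem_map_of_mem _ hmem))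
      (Subgroup.mem_sup_right ⟨k, rfl⟩)
  · have h1 := Subgroup.card_mul_index ψ.toHomUnits.ker
    rw [Subgroup.index_ker, hker, hMcard] at h1
    rw [← h1]
    refine Nat.mul_dvd_mul_left q ?_
    have := Subgroup.card_dvd_of_le hrange
    rwa [Nat.card_zpowers, huord] at this

end Cfsg.Agent.H79
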