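import Cfsg.Agent.S0183

/-!
A nonabelian finite simple group admits no action with maximal point stabilisers that respects
powers and induces all inner automorphisms.
-/

set_option autoImplicit false

namespace Cfsg.Agent.H79

open MulAction
open scoped Pointwise

theorem false_of_power_action {T : Type*} [Group T] [Finite T] [IsSimpleGroup T]
    (hT : ¬ ∀ a b : T, a * b = b * a) {H : Type*} [Group H] [MulAction H T]
    (hpow : ∀ (h : H) (x : T) (j : ℕ), h • x ^ j = (h • x) ^ j)
    (hinn : ∀ t : T, ∃ h : H, ∀ x : T, h • x = t * x * t⁻¹)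
    (hmax : ∀ (x : T) (K : Subgroup H), stabilizer H x ≤ K → K = stabilizer H x ∨ K = ⊤) :
    False := by
  -- an element fixed by everything is central, hence trivial
  have hne : ∀ x : T, x ≠ 1 → stabilizer H x ≠ ⊤ := by
    intro x hx h
    have hc : x ∈ Subgroup.center T := Subgroup.mem_center_iff.2 fun t => by
      obtain ⟨k, hk⟩ := hinn t
      have hm : k ∈ stabilizer H x := h ▸ Subgroup.mem_top k
      rw [mem_stabilizer_iff, hk] at hm
      exact mul_inv_eq_iff_eq_mul.1 hm
    rcases (inferInstance : (Subgroup.center T).Normal).eq_bot_or_eq_top with e | e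
    · rw [e, Subgroup.mem_bot] at hc
      exact hx hc
    · exact hT fun a b => (Subgroup.mem_center_iff.1 (e ▸ Subgroup.mem_top a) b).symm
  have hpw : ∀ (x : T) (j : ℕ), x ^ j ≠ 1 → stabilizer H (x ^ j) = stabilizer H x := by
    intro x j hj
    refine (hmax x _ fun h hh => ?_).resolve_right (hne _ hj)
    rw [mem_stabilizer_iff] at hh ⊢
    rw [hpow, hh]
  have hcent : ∀ x y : T, stabilizer H x ≤ stabilizer H y → ∀ t : T, Commute t x → Commute t y := by
    intro x y hle t ht
    obtain ⟨k, hk⟩ := hinn t
    have h1 : k ∈ stabilizer H x := by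
      rw [mem_stabilizer_iff, hk, mul_inv_eq_iff_eq_mul]
      exact ht
    have h2 := hle h1
    rw [mem_stabilizer_iff, hk, mul_inv_eq_iff_eq_mul] at h2
    exact h2
  -- an element normalising a cyclic subgroup centralises it
  have hnorm : ∀ (t x : T), (∃ j : ℕ, t * x * t⁻¹ = x ^ j) → Commute t x := by
    rintro t x ⟨j, hj⟩
    rcases eq_or_ne x 1 with rfl | hx
    · exact Commute.one_right t
    let S : Set T := {y | ∃ i : ℕ, x ^ i = y}
    let K : Subgroup H := stabilizer H S
    have hmem : ∀ (k : H) (i : ℕ), k • x = x ^ i → k ∈ K := by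
      intro k i hi
      refine mem_stabilizer_iff.2 (Set.eq_of_subset_of_ncard_le ?_ ?_ (Set.toFinite _))
      · rintro _ ⟨_, ⟨l, rfl⟩, rfl⟩
        exact ⟨i * l, by show x ^ (i * l) = k • x ^ l; rw [hpow, hi, ← pow_mul]⟩
      · exact (Set.ncard_image_of_injective S (MulAction.injective k)).ge
    have hK : K = stabilizer H x := by
      refine (hmax x K fun h hh => hmem h 1 (by rw [pow_one]; exact hh)).resolve_right fun htop => ?_
      -- then the cyclic subgroup is normal
      haveI : (Subgroup.zpowers x).Normal := ⟨by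
        intro y hy u
        obtain ⟨k, hk⟩ := hinn u
        have hkS : k • S = S := mem_stabilizer_iff.1 (htop ▸ Subgroup.mem_top k : k ∈ K)
        obtain ⟨i, hi⟩ : k • x ∈ S := hkS ▸ ⟨x, ⟨1, pow_one x⟩, rfl⟩
        obtain ⟨n, rfl⟩ := (Subgroup.mem_zpowers_iff).1 hy
        rw [← conj_zpow, ← hk, ← hi]
        exact Subgroup.zpow_mem _ (Subgroup.pow_mem _ (Subgroup.mem_zpowers x) i) n⟩
      rcases (inferInstance : (Subgroup.zpowers x).Normal).eq_bot_or_eq_top with e | e
      · exact hx (Subgroup.zpowers_eq_bot.1 e)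
      · refine hT fun a b => ?_
        obtain ⟨n, rfl⟩ := Subgroup.mem_zpowers_iff.1 (e ▸ Subgroup.mem_top a : a ∈ _)
        obtain ⟨m, rfl⟩ := Subgroup.mem_zpowers_iff.1 (e ▸ Subgroup.mem_top b : b ∈ _)
        exact (Commute.refl x).zpow_zpow n m
    obtain ⟨k, hk⟩ := hinn t
    have hkK : k ∈ K := hmem k j (by rw [hk, hj])
    rw [hK, mem_stabilizer_iff, hk, mul_inv_eq_iff_eq_mul] at hkK
    exact hkK
  -- coprime commuting elements have the same stabiliser
  have hcop : ∀ x y : T, x ≠ 1 → y ≠ 1 → Commute x y → (orderOf x).Coprime (orderOf y) →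
      stabilizer H x = stabilizer H y := by
    intro x y hx hy hc hcp
    obtain ⟨m, hm⟩ := Nat.exists_mul_mod_eq_one_of_coprime hcp.symm (by
      rcases Nat.lt_or_ge 1 (orderOf x) with h | h
      · exact h
      · exact absurd (orderOf_eq_one_iff.1 (le_antisymm h (orderOf_pos x))) hx)
    obtain ⟨m', hm'⟩ := Nat.exists_mul_mod_eq_one_of_coprime hcp (by
      rcases Nat.lt_or_ge 1 (orderOf y) with h | h
      · exact h
      · exact absurd (orderOf_eq_one_iff.1 (le_antisymm h (orderOf_pos y))) hy)
    have e1 : (x * y) ^ (orderOf y * m) = x := by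
      rw [hc.mul_pow, pow_mul y, pow_orderOf_eq_one, one_pow, mul_one, ← pow_mod_orderOf, hm.2,
        pow_one]
    have e2 : (x * y) ^ (orderOf x * m') = y := by
      rw [hc.mul_pow, pow_mul x, pow_orderOf_eq_one, one_pow, one_mul, ← pow_mod_orderOf, hm'.2,
        pow_one]
    have h1 := hpw (x * y) (orderOf y * m) (by rw [e1]; exact hx)
    have h2 := hpw (x * y) (orderOf x * m') (by rw [e2]; exact hy)
    rw [e1] at h1
    rw [e2] at h2
    rw [h1, h2]
  have hCN : Cfsg.IsCNGroup T := by
    intro g hg
    obtain ⟨p, hp, hpg⟩ := Nat.exists_prime_and_dvd (mt orderOf_eq_one_iff.1 hg)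
    haveI := Fact.mk hp
    set x := g ^ (orderOf g / p)
    have hxo : orderOf x = p := orderOf_pow_orderOf_div (orderOf_pos g).ne' hpg
    have hx : x ≠ 1 := fun e => hp.ne_one (by rw [← hxo, e, orderOf_one])
    have hst : stabilizer H x = stabilizer H g := hpw g _ hx
    set C := Subgroup.centralizer ({g} : Set T)
    have hcen : ∀ a : C, (orderOf a).Coprime p → a ∈ Subgroup.center C := by
      intro a ha
      rcases eq_or_ne (a : T) 1 with e | e
      · have : a = 1 := Subtype.ext e
        rw [this]; exact one_mem _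
      have hag : Commute (a : T) g := Subgroup.mem_centralizer_singleton_iff.1 a.2
      have hax : stabilizer H (a : T) = stabilizer H x :=
        hcop _ _ e hx (hag.pow_right _) (by rw [Subgroup.orderOf_coe, hxo]; exact ha)
      rw [Subgroup.mem_center_iff]
      intro b
      have hbg : Commute (b : T) g := Subgroup.mem_centralizer_singleton_iff.1 b.2
      exact Subtype.ext (hcent g a (hax.trans hst).ge _ hbg)
    have hP : IsPGroup p (C ⧸ Subgroup.center C) := by
      intro q
      obtain ⟨a, rfl⟩ := QuotientGroup.mk_surjective q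
      refine ⟨(orderOf a).factorization p, ?_⟩
      rw [← QuotientGroup.mk_pow, QuotientGroup.eq_one_iff]
      refine hcen _ ?_
      rw [orderOf_pow_of_dvd (pow_ne_zero _ hp.ne_zero) (Nat.ordProj_dvd _ p)]
      exact (Nat.coprime_ordCompl hp (orderOf_pos a).ne').symm
    haveI := hP.isNilpotent
    exact Subgroup.isNilpotent_of_ker_le_center (QuotientGroup.mk' (Subgroup.center C))
      (by rw [QuotientGroup.ker_mk']) 
  rcases Nat.even_or_odd (Nat.card T) with he | ho
  · obtain ⟨u, hu⟩ := exists_prime_orderOf_dvd_card' 2 (even_iff_two_dvd.1 he)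
    have hu2 : u * u = 1 := by rw [← pow_two, ← hu, pow_orderOf_eq_one]
    have hcl : ∀ c : T, Commute u (c * u * c⁻¹) := by
      intro c
      set v := c * u * c⁻¹
      have hv : v * v = 1 := by
        show c * u * c⁻¹ * (c * u * c⁻¹) = 1
        rw [show c * u * c⁻¹ * (c * u * c⁻¹) = c * (u * u) * c⁻¹ by group, hu2]
        group
      have hui : u⁻¹ = u := inv_eq_of_mul_eq_one_right hu2
      have hvi : v⁻¹ = v := inv_eq_of_mul_eq_one_right hv
      have hinv : u * (u * v) * u⁻¹ = (u * v)⁻¹ := by rw [mul_inv_rev, hvi, hui, ← mul_assoc, hu2, one_mul]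
      have := hnorm u (u * v) ⟨orderOf (u * v) - 1, by
        rw [hinv, eq_comm]
        exact eq_inv_of_mul_eq_one_left (by
          rw [← pow_succ, Nat.sub_add_cancel (orderOf_pos _), pow_orderOf_eq_one])⟩
      have h3 : u * (u * v) = (u * v) * u := this
      rw [← mul_assoc, hu2, one_mul] at h3
      show u * v = v * u
      calc u * v = u * (u * v * u) := by rw [← h3]
        _ = (u * u) * (v * u) := by group
        _ = v * u := by rw [hu2, one_mul]
    have hpair : ∀ a b : T, Commute (a * u * a⁻¹) (b * u * b⁻¹) := by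
      intro a b
      have h := (hcl (a⁻¹ * b)).map (MulAut.conj a).toMonoidHom
      simpa [MulAut.conj_apply, mul_assoc] using h
    have hne1 : Subgroup.normalClosure {u} ≠ ⊥ := by
      intro e
      have hm : u ∈ Subgroup.normalClosure {u} := Subgroup.subset_normalClosure rfl
      rw [e, Subgroup.mem_bot] at hm
      rw [hm, orderOf_one] at hu
      omega
    have htop := (Subgroup.normalClosure_normal (s := ({u} : Set T))).eq_bot_or_eq_top.resolve_left hne1
    refine hT fun a b => ?_
    have hab : IsMulCommutative (Subgroup.closure (Group.conjugatesOfSet ({u} : Set T))) :=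
      Subgroup.isMulCommutative_closure (by
        intro x hx y hy
        rw [Group.mem_conjugatesOfSet_iff] at hx hy
        obtain ⟨_, rfl, hx⟩ := hx
        obtain ⟨_, rfl, hy⟩ := hy
        obtain ⟨c, rfl⟩ := isConj_iff.1 hx
        obtain ⟨d, rfl⟩ := isConj_iff.1 hy
        exact hpair c d)
    have ha : a ∈ Subgroup.normalClosure {u} := htop ▸ Subgroup.mem_top a
    have hb : b ∈ Subgroup.normalClosure {u} := htop ▸ Subgroup.mem_top b
    exact congrArg Subtype.val (hab.is_comm.comm ⟨a, ha⟩ ⟨b, hb⟩)
  · haveI := Cfsg.Agent.S0183.result ho hCN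
    exact hT fun a b => (IsSimpleGroup.comm_iff_isSolvable.2 inferInstance) a b

end Cfsg.Agent.H79
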