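import Cfsg.Agent.H80.PrimitiveNormal
import Cfsg.Agent.H79.PowerAction

/-!
An extremely primitive group is affine or almost simple.
-/

set_option autoImplicit false

namespace Cfsg.Agent.H79.EPSocle

open MulAction

variable {G : Type*} [Group G] {Ω : Type*} [MulAction G Ω]

/-- Distinct conjugates of a factor commute elementwise. -/
theorem conj_factor_commute [Finite G] {N T : Subgroup G} (h : H80.SimpleFactor N T) (g : G)
    (hne : T.map (MulAut.conj g).toMonoidHom ≠ T) {x y : G} (hx : x ∈ T)
    (hy : y ∈ T.map (MulAut.conj g).toMonoidHom) : x * y = y * x := by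
  have hN := h.minimal.normal
  set T' := T.map (MulAut.conj g).toMonoidHom
  have hT'N : T' ≤ N := by
    rintro _ ⟨z, hz, rfl⟩
    exact hN.conj_mem z (h.factor.le hz) g
  have hT'conj : ∀ a ∈ N, ∀ z ∈ T', a * z * a⁻¹ ∈ T' := by
    rintro a ha _ ⟨z, hz, rfl⟩
    refine ⟨(g⁻¹ * a * g) * z * (g⁻¹ * a * g)⁻¹, h.factor.conj_mem _ ?_ z hz, ?_⟩
    · simpa using hN.conj_mem a ha g⁻¹
    · simp [MulAut.conj_apply, mul_assoc]
  have hI : T ⊓ T' = ⊥ := by
    by_contra hI
    have heq := h.factor.eq_of_le _ inf_le_left hI fun a ha z hz =>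
      ⟨h.factor.conj_mem a ha z hz.1, hT'conj a ha z hz.2⟩
    exact hne (SetLike.coe_injective (Set.eq_of_subset_of_ncard_le (heq ▸ inf_le_right : T ≤ T') (by
      rw [Subgroup.coe_map]; exact Set.ncard_image_le))).symm
  have h1 : x * y * x⁻¹ * y⁻¹ ∈ T ⊓ T' := by
    constructor
    · rw [show x * y * x⁻¹ * y⁻¹ = x * (y * x⁻¹ * y⁻¹) by group]
      exact mul_mem hx (h.factor.conj_mem y (hT'N hy) _ (inv_mem hx))
    · exact T'.mul_mem (hT'conj x (h.factor.le hx) y hy) (T'.inv_mem hy)
  rw [hI, Subgroup.mem_bot] at h1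
  exact mul_inv_eq_iff_eq_mul.1 (mul_inv_eq_one.1 h1)

/-- The factor is a nonabelian simple group. -/
theorem factor_isSimpleGroup [Finite G] {N T : Subgroup G} (h : H80.SimpleFactor N T) :
    IsSimpleGroup T := by
  have : Nontrivial T := (Subgroup.nontrivial_iff_ne_bot T).2 h.factor.ne_bot
  refine ⟨fun K hK => ?_⟩
  by_cases hb : K = ⊥
  · exact Or.inl hb
  refine Or.inr (Subgroup.map_injective T.subtype_injective ?_)
  rw [← MonoidHom.range_eq_map, Subgroup.range_subtype]
  refine h.factor.eq_of_le _ (Subgroup.map_subtype_le K) ?_ ?_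
  · simpa [Subgroup.map_eq_bot_iff_of_injective _ T.subtype_injective] using hb
  · rintro a ha _ ⟨x, hx, rfl⟩
    obtain ⟨t, ht, b, hb', rfl⟩ := h.decomp a ha
    refine ⟨⟨t, ht⟩ * x * ⟨t, ht⟩⁻¹, hK.conj_mem x hx _, ?_⟩
    show t * x.1 * t⁻¹ = t * b * x.1 * (t * b)⁻¹
    have := Subgroup.mem_centralizer_iff.1 hb'.2 x.1 x.2
    calc t * x.1 * t⁻¹ = t * (x.1 * b) * b⁻¹ * t⁻¹ := by group
      _ = t * (b * x.1) * b⁻¹ * t⁻¹ := by rw [this]
      _ = t * b * x.1 * (t * b)⁻¹ := by group

/-- Two-point stabilisers are maximal in point stabilisers. -/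
theorem stabilizer_max
    (hep : ∀ (α ω : Ω), IsPreprimitive (stabilizer G α) (orbit (stabilizer G α) ω))
    (α ω : Ω) (K : Subgroup (stabilizer G α)) (hle : stabilizer (stabilizer G α) ω ≤ K) :
    K = stabilizer (stabilizer G α) ω ∨ K = ⊤ := by
  set O := orbit (stabilizer G α) ω
  let ω' : O := ⟨ω, mem_orbit_self ω⟩
  have hst : stabilizer (stabilizer G α) ω' = stabilizer (stabilizer G α) ω := by
    ext h
    rw [mem_stabilizer_iff, mem_stabilizer_iff, Subtype.ext_iff]
    rfl
  rcases subsingleton_or_nontrivial O with hs | hn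
  · right
    refine top_le_iff.1 fun h _ => hle ?_
    exact congrArg Subtype.val (Subsingleton.elim (h • ω') ω')
  · haveI := hep α ω
    have hco := IsPreprimitive.isCoatom_stabilizer_of_isPreprimitive (stabilizer G α) ω'
    rw [hst] at hco
    rcases hle.lt_or_eq with h | h
    · exact Or.inr (hco.2 _ h)
    · exact Or.inl h.symm

/-- The core contradiction: a simple subgroup meeting the stabiliser trivially whose orbit of
points is invariant, with all inner automorphisms induced. -/
theorem false_of_invariant_factor [Finite G] {T : Subgroup G} [IsSimpleGroup T]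
    (hT : ¬ ∀ a b : T, a * b = b * a) (α : Ω)
    (hep : ∀ (α ω : Ω), IsPreprimitive (stabilizer G α) (orbit (stabilizer G α) ω))
    (hfree : ∀ t ∈ T, t • α = α → t = 1)
    (hinv : ∀ h ∈ stabilizer G α, ∀ t ∈ T, ∃ u ∈ T, (h * t) • α = u • α)
    (hpow : ∀ h ∈ stabilizer G α, ∀ t ∈ T, ∀ u ∈ T, (h * t) • α = u • α →
      ∀ j : ℕ, (h * t ^ j) • α = u ^ j • α)
    (hinn : ∀ t ∈ T, ∃ h ∈ stabilizer G α, ∀ x ∈ T, h * x * h⁻¹ = t * x * t⁻¹) : False := by
  have huniq : ∀ u v : T, (u : G) • α = (v : G) • α → u = v := by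
    intro u v h
    have h1 := hfree _ (T.mul_mem (T.inv_mem v.2) u.2) (by rw [mul_smul, h, inv_smul_smul])
    exact Subtype.ext (inv_mul_eq_one.1 h1).symm
  choose φ hφT hφ using fun (h : stabilizer G α) (t : T) => hinv h.1 h.2 t.1 t.2
  have hkey : ∀ (h : stabilizer G α) (t : T), (φ h t) • α = h.1 • (t : G) • α := fun h t => by
    rw [← hφ h t, mul_smul]
  letI : MulAction (stabilizer G α) T :=
    { smul := fun h t => ⟨φ h t, hφT h t⟩
      one_smul := fun t => huniq _ _ (by
        show (φ 1 t) • α = _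
        rw [hkey, OneMemClass.coe_one, one_smul])
      mul_smul := fun a b t => huniq _ _ (by
        show (φ (a * b) t) • α = (φ a ⟨φ b t, hφT b t⟩) • α
        rw [hkey, hkey, hkey, Subgroup.coe_mul, mul_smul]) }
  have hsmul : ∀ (h : stabilizer G α) (t : T), ((h • t : T) : G) • α = h.1 • (t : G) • α := hkey
  refine false_of_power_action (T := T) hT (H := stabilizer G α) ?_ ?_ ?_
  · intro h x j
    refine huniq _ _ ?_
    rw [hsmul, SubgroupClass.coe_pow, SubgroupClass.coe_pow, ← mul_smul]
    exact hpow h.1 h.2 x.1 x.2 _ (h • x).2 (by rw [mul_smul, hsmul]) j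
  · intro t
    obtain ⟨h, hh, hc⟩ := hinn t.1 t.2
    refine ⟨⟨h, hh⟩, fun x => huniq _ _ ?_⟩
    rw [hsmul, Subgroup.coe_mul, Subgroup.coe_mul, Subgroup.coe_inv, ← hc x.1 x.2]
    show h • x.1 • α = (h * x.1 * h⁻¹) • α
    rw [mul_smul, mul_smul, inv_smul_eq_iff.2 (mem_stabilizer_iff.1 hh).symm]
  · intro x K hle
    have hst : stabilizer (stabilizer G α) x = stabilizer (stabilizer G α) ((x : G) • α) := by
      ext h
      rw [mem_stabilizer_iff, mem_stabilizer_iff, Subgroup.smul_def]
      constructor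
      · intro e; rw [← hsmul, e]
      · intro e; exact huniq _ _ (by rw [hsmul, e])
    rw [hst] at hle ⊢
    exact stabilizer_max hep α _ K hle

theorem main [Finite G] [Finite Ω] [FaithfulSMul G Ω] [Nontrivial Ω] (hprim : IsPreprimitive G Ω)
    (hep : ∀ (α ω : Ω), IsPreprimitive (stabilizer G α) (orbit (stabilizer G α) ω)) :
    (∃ N : Subgroup G, N.Normal ∧ N ≠ ⊥ ∧ IsMulCommutative N ∧ ∀ ω : Ω, stabilizer N ω = ⊥) ∨
      (∃ T : Subgroup G, T.Normal ∧ IsSimpleGroup T ∧ ¬ IsMulCommutative T ∧
        Subgroup.centralizer (T : Set G) = ⊥) := by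
  classical
  haveI := hprim
  have hG : (⊤ : Subgroup G) ≠ ⊥ := by
    intro e
    obtain ⟨a, b, hab⟩ := exists_pair_ne Ω
    obtain ⟨g, hg⟩ := MulAction.exists_smul_eq G a b
    rw [show g = 1 from Subgroup.mem_bot.1 (e ▸ Subgroup.mem_top g), one_smul] at hg
    exact hab hg
  obtain ⟨N, -, hN⟩ := H80.exists_minimalNormalized (⊤ : Subgroup G) ⊤ hG le_rfl
    (fun _ _ _ _ => Subgroup.mem_top _)
  have hNn := hN.normal
  haveI := hNn
  haveI hNt : IsPretransitive N Ω := H80.isPretransitive_of_normal hprim hNn hN.ne_bot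
  by_cases hc : ∀ x ∈ N, ∀ y ∈ N, x * y = y * x
  · exact Or.inl ⟨N, hNn, hN.ne_bot, ⟨⟨fun a b => Subtype.ext (hc a a.2 b b.2)⟩⟩,
      fun ω => H80.stabilizer_eq_bot_of_comm hc ω⟩
  right
  obtain ⟨T, hT⟩ := H80.exists_simpleFactor hN hc
  haveI := factor_isSimpleGroup hT
  have hTnc : ¬ ∀ a b : T, a * b = b * a := fun h => hT.nonabelian fun x hx y hy =>
    congrArg Subtype.val (h ⟨x, hx⟩ ⟨y, hy⟩)
  obtain ⟨α⟩ : Nonempty Ω := inferInstance
  set H := stabilizer G α with hH
  set B := N ⊓ Subgroup.centralizer (T : Set G) with hB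
  have hTN : T ≤ N := hT.factor.le
  have hBc : ∀ b ∈ B, ∀ t ∈ T, t * b = b * t := fun b hb t ht =>
    Subgroup.mem_centralizer_iff.1 hb.2 t ht
  have hBconj : ∀ b ∈ B, ∀ t ∈ T, b * t * b⁻¹ = t := fun b hb t ht => by
    rw [← hBc b hb t ht, mul_inv_cancel_right]
  have hGdec : ∀ g : G, ∃ n ∈ N, ∃ h ∈ H, g = n * h := by
    intro g
    obtain ⟨n, hn⟩ := MulAction.exists_smul_eq N α (g • α)
    refine ⟨n.1, n.2, n.1⁻¹ * g, ?_, by group⟩
    rw [hH, mem_stabilizer_iff, mul_smul, ← hn]
    exact inv_smul_smul n.1 α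
  have hfix : ∀ h ∈ H, h⁻¹ • α = α := fun h hh =>
    inv_smul_eq_iff.2 (mem_stabilizer_iff.1 hh).symm
  have hmove : ∀ h ∈ H, ∀ x : G, (h * x) • α = (h * x * h⁻¹) • α := fun h hh x => by
    rw [mul_smul (h * x), hfix h hh]
  have hcoat : IsCoatom H := IsPreprimitive.isCoatom_stabilizer_of_isPreprimitive G α
  have hNH : ¬ N ≤ H := fun hle => by
    obtain ⟨x, hx, hx1⟩ := (Subgroup.bot_or_exists_ne_one N).resolve_left hN.ne_bot
    refine hx1 (eq_of_smul_eq_smul (α := Ω) fun ω => ?_)
    obtain ⟨n, rfl⟩ := MulAction.exists_smul_eq N α ω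
    rw [one_smul, Subgroup.smul_def, mem_stabilizer_iff.1 (hle n.2), mem_stabilizer_iff.1 (hle hx)]
  -- the case of a simple minimal normal subgroup
  have simpleCase : T = N → Subgroup.centralizer (N : Set G) = ⊥ →
      ∃ T : Subgroup G, T.Normal ∧ IsSimpleGroup T ∧ ¬ IsMulCommutative T ∧
        Subgroup.centralizer (T : Set G) = ⊥ := fun e hC =>
    ⟨T, e ▸ hNn, inferInstance, fun h => hTnc fun a b => h.is_comm.comm a b, e ▸ hC⟩
  by_cases hreg : ∀ n ∈ N, n • α = α → n = 1
  · -- regular minimal normal subgroup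
    have huniq : ∀ u ∈ N, ∀ v ∈ N, u • α = v • α → u = v := fun u hu v hv h =>
      (inv_mul_eq_one.1 (hreg _ (N.mul_mem (N.inv_mem hv) hu)
        (by rw [mul_smul, h, inv_smul_smul]))).symm
    by_cases hTeq : T = N
    · refine simpleCase hTeq ?_
      by_contra hC
      haveI : IsPretransitive (Subgroup.centralizer (N : Set G)) Ω :=
        H80.isPretransitive_of_normal hprim inferInstance hC
      subst hTeq
      refine false_of_invariant_factor hTnc α hep hreg ?_ ?_ ?_
      · intro h hh t ht
        exact ⟨h * t * h⁻¹, hNn.conj_mem t ht h, hmove h hh t⟩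
      · intro h hh t ht u hu e j
        rw [hmove h hh] at e ⊢
        rw [← conj_pow, huniq _ (hNn.conj_mem t ht h) u hu e]
      · intro t ht
        obtain ⟨c, hc'⟩ := MulAction.exists_smul_eq (Subgroup.centralizer (T : Set G)) α (t • α)
        refine ⟨c.1⁻¹ * t, ?_, fun x hx => ?_⟩
        · rw [mem_stabilizer_iff, mul_smul, ← hc']
          exact inv_smul_smul c.1 α
        · have h1 := Subgroup.mem_centralizer_iff.1 c.2 (t * x * t⁻¹)
            (mul_mem (mul_mem ht hx) (inv_mem ht))
          calc c.1⁻¹ * t * x * (c.1⁻¹ * t)⁻¹ = c.1⁻¹ * ((t * x * t⁻¹) * c.1) := by group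
            _ = t * x * t⁻¹ := by rw [h1]; group
    · exfalso
      -- the normaliser of the factor in the stabiliser centralises it
      set J := Subgroup.normalizer (T : Set G) with hJ
      have hJT : ∀ g ∈ J, T.map (MulAut.conj g).toMonoidHom = T := by
        intro g hg
        refine SetLike.coe_injective (Set.eq_of_subset_of_ncard_le ?_ ?_)
        · rintro _ ⟨x, hx, rfl⟩
          exact (Subgroup.mem_normalizer_iff.1 hg x).1 hx
        · rw [Subgroup.coe_map]
          exact (Set.ncard_image_of_injective _ (MulAut.conj g).injective).ge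
      have hHJ : ¬ H ≤ J := fun hle => by
        apply hTeq
        refine hT.minimal.eq_of_normal ⟨fun x hx g => ?_⟩ hTN hT.factor.ne_bot
        obtain ⟨n, hn, h, hh, rfl⟩ := hGdec g
        have := hT.factor.conj_mem n hn _ ((Subgroup.mem_normalizer_iff.1 (hle hh) x).1 hx)
        simpa [mul_assoc] using this
      have hcen : ∀ h ∈ H, h ∈ J → ∀ t ∈ T, h * t * h⁻¹ = t := by
        intro h hh hj t ht
        rcases eq_or_ne t 1 with rfl | ht1
        · simp
        have hle : stabilizer H (t • α) ≤ J.subgroupOf H := by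
          intro k hk
          rw [mem_stabilizer_iff, Subgroup.smul_def, ← mul_smul, hmove k.1 k.2] at hk
          have he := huniq _ (hNn.conj_mem t (hTN ht) k.1) t (hTN ht) hk
          rw [Subgroup.mem_subgroupOf]
          by_contra hk'
          have hne : T.map (MulAut.conj k.1).toMonoidHom ≠ T := by
            intro heq
            apply hk'
            refine Subgroup.mem_normalizer_iff.2 fun x => ⟨fun hx => heq ▸ ⟨x, hx, rfl⟩, fun hx => ?_⟩
            obtain ⟨y, hy, hy'⟩ := (heq.symm ▸ hx : _ ∈ T.map (MulAut.conj k.1).toMonoidHom)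
            simp only [MulEquiv.toMonoidHom_eq_coe, MonoidHom.coe_coe, MulAut.conj_apply] at hy'
            rwa [← mul_left_cancel (mul_right_cancel hy')]
          refine ht1 (hT.eq_one_of_mem ht fun y hy => ?_)
          exact (conj_factor_commute hT k.1 hne hy ⟨t, ht, he⟩).symm
        rcases stabilizer_max hep α (t • α) _ hle with e | e
        · have hm : (⟨h, hh⟩ : H) ∈ stabilizer H (t • α) := e ▸ (Subgroup.mem_subgroupOf.2 hj)
          rw [mem_stabilizer_iff, Subgroup.smul_def, ← mul_smul, hmove h hh] at hm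
          exact huniq _ (hNn.conj_mem t (hTN ht) h) t (hTN ht) hm
        · exact absurd (Subgroup.subgroupOf_eq_top.1 e) hHJ
      obtain ⟨t, ht, ht1⟩ := (Subgroup.bot_or_exists_ne_one T).resolve_left hT.factor.ne_bot
      set O : Finset G := (Set.toFinite {x : G | ∃ h ∈ H, x = h * t * h⁻¹}).toFinset with hO
      have hmemO : ∀ x, x ∈ O ↔ ∃ h ∈ H, x = h * t * h⁻¹ := fun x => by
        rw [hO, Set.Finite.mem_toFinset]; rfl
      have htO : t ∈ O := (hmemO t).2 ⟨1, one_mem H, by simp⟩
      have hother : ∀ x ∈ O, x ≠ t → ∀ y ∈ T, y * x = x * y := by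
        intro x hx hne y hy
        obtain ⟨h, hh, rfl⟩ := (hmemO x).1 hx
        by_cases hm : T.map (MulAut.conj h).toMonoidHom = T
        · refine absurd (hcen h hh ?_ t ht) hne
          refine Subgroup.mem_normalizer_iff.2 fun z => ⟨fun hz => hm ▸ ⟨z, hz, rfl⟩, fun hz => ?_⟩
          obtain ⟨w, hw, hw'⟩ := (hm.symm ▸ hz : _ ∈ T.map (MulAut.conj h).toMonoidHom)
          simp only [MulEquiv.toMonoidHom_eq_coe, MonoidHom.coe_coe, MulAut.conj_apply] at hw'
          rwa [← mul_left_cancel (mul_right_cancel hw')]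
        · exact conj_factor_commute hT h hm hy ⟨t, ht, rfl⟩
      have hcommO : (O : Set G).Pairwise (Function.onFun Commute id) := by
        intro x hx y hy hne
        obtain ⟨h, hh, rfl⟩ := (hmemO x).1 hx
        have h1 : h⁻¹ * y * h ∈ O := by
          obtain ⟨k, hk, rfl⟩ := (hmemO y).1 hy
          exact (hmemO _).2 ⟨h⁻¹ * k, mul_mem (inv_mem hh) hk, by group⟩
        have h2 : h⁻¹ * y * h ≠ t := fun e => hne (by
          show h * t * h⁻¹ = y
          rw [← e]; group)
        have h3 := hother _ h1 h2 t ht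
        show h * t * h⁻¹ * y = y * (h * t * h⁻¹)
        calc h * t * h⁻¹ * y = h * (t * (h⁻¹ * y * h)) * h⁻¹ := by group
          _ = h * ((h⁻¹ * y * h) * t) * h⁻¹ := by rw [h3]
          _ = y * (h * t * h⁻¹) := by group
      let A : Subgroup G := Subgroup.closure (O : Set G)
      have hAc : IsMulCommutative A := Subgroup.isMulCommutative_closure (fun x hx y hy => by
        rcases eq_or_ne x y with rfl | hne
        · rfl
        · exact hcommO hx hy hne)
      letI : CommGroup A :=
        { (inferInstance : Group A) with mul_comm := fun a b => hAc.is_comm.comm a b }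
      let f : O → A := fun x => ⟨x.1, Subgroup.subset_closure x.2⟩
      set c : A := ∏ x : O, f x with hcdef
      have hcfix : ∀ h ∈ H, h * (c : G) * h⁻¹ = c := by
        intro h hh
        have hO : ∀ x ∈ O, h * x * h⁻¹ ∈ O := by
          intro x hx
          obtain ⟨k, hk, rfl⟩ := (hmemO x).1 hx
          exact (hmemO _).2 ⟨h * k, mul_mem hh hk, by group⟩
        have hA : A.map (MulAut.conj h).toMonoidHom ≤ A := by
          rw [MonoidHom.map_closure, Subgroup.closure_le]
          rintro _ ⟨x, hx, rfl⟩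
          exact Subgroup.subset_closure (hO x hx)
        let φ : A →* A := ((MulAut.conj h).toMonoidHom.comp A.subtype).codRestrict A
          fun a => hA ⟨a.1, a.2, rfl⟩
        let σ : O → O := fun x => ⟨h * x.1 * h⁻¹, hO x.1 x.2⟩
        have hσ : Function.Bijective σ := Finite.injective_iff_bijective.1 fun x y e =>
          Subtype.ext (mul_left_cancel (mul_right_cancel (congrArg Subtype.val e)))
        have h1 : φ c = c := by
          rw [hcdef, map_prod]
          exact (Equiv.ofBijective σ hσ).prod_comp f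
        exact congrArg Subtype.val h1
      have hAN : A ≤ N := by
        rw [Subgroup.closure_le]
        intro x hx
        obtain ⟨h, hh, rfl⟩ := (hmemO x).1 hx
        exact hNn.conj_mem t (hTN ht) h
      have hc1 : (c : G) ≠ 1 := by
        intro e
        refine ht1 (hT.eq_one_of_mem ht fun y hy => ?_)
        rw [hcdef, ← Finset.mul_prod_erase Finset.univ f (Finset.mem_univ ⟨t, htO⟩),
          Subgroup.coe_mul] at e
        have hr : ((∏ x ∈ Finset.univ.erase ⟨t, htO⟩, f x : A) : G) ∈
            Subgroup.centralizer (T : Set G) := by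
          refine Subgroup.mem_subgroupOf.1 (Subgroup.prod_mem
            ((Subgroup.centralizer (T : Set G)).subgroupOf A) fun x hx => ?_)
          rw [Subgroup.mem_subgroupOf]
          refine Subgroup.mem_centralizer_iff.2 fun z hz => hother x.1 x.2 ?_ z hz
          exact fun he => (Finset.mem_erase.1 hx).1 (Subtype.ext he)
        have h1 : t⁻¹ ∈ Subgroup.centralizer (T : Set G) := by
          rw [show t⁻¹ = _ from inv_eq_of_mul_eq_one_right e]; exact hr
        exact (Subgroup.mem_centralizer_iff.1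
          (by simpa using inv_mem h1 : t ∈ Subgroup.centralizer (T : Set G)) y hy).symm
      -- then the stabiliser is normal
      have hcmove : (c : G) • α ≠ α := fun e => hc1 (hreg _ (hAN c.2) e)
      have hle : H ≤ stabilizer G ((c : G) • α) := fun h hh => by
        rw [mem_stabilizer_iff, ← mul_smul, hmove h hh, hcfix h hh]
      have hcH : stabilizer G ((c : G) • α) = H := by
        rcases hcoat.le_iff.1 hle with e | e
        · exfalso
          refine hNH fun n hn => ?_
          have : stabilizer G α = ⊤ := by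
            refine top_le_iff.1 fun g _ => ?_
            have hg : (c : G) * g * (c : G)⁻¹ ∈ stabilizer G ((c : G) • α) := e ▸ Subgroup.mem_top _
            rw [mem_stabilizer_iff, ← mul_smul, show (c : G) * g * (c : G)⁻¹ * c = c * g by group,
              mul_smul] at hg
            exact MulAction.injective (c : G) hg
          rw [hH, this]; exact Subgroup.mem_top n
        · exact e
      have hnorm : (c : G) ∈ Subgroup.normalizer (H : Set G) :=
        Subgroup.mem_normalizer_iff.2 fun x => by
          conv_rhs => rw [← hcH]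
          rw [hH, mem_stabilizer_iff, mem_stabilizer_iff, ← mul_smul,
            show (c : G) * x * (c : G)⁻¹ * c = c * x by group, mul_smul, smul_left_cancel_iff]
      haveI : H.Normal := by
        rcases hcoat.le_iff.1 (Subgroup.le_normalizer : H ≤ Subgroup.normalizer (H : Set G)) with e | e
        · exact Subgroup.normalizer_eq_top_iff.1 e
        · exact absurd (e.le hnorm) hcmove
      have hbot : H = ⊥ := (Subgroup.eq_bot_iff_forall H).2 fun x hx =>
        eq_of_smul_eq_smul (α := Ω) fun ω => by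
          obtain ⟨g, rfl⟩ := MulAction.exists_smul_eq G α ω
          have := (inferInstance : H.Normal).conj_mem x hx g⁻¹
          rw [inv_inv] at this
          rw [one_smul, ← mul_smul, show x * g = g * (g⁻¹ * x * g) by group, mul_smul,
            mem_stabilizer_iff.1 this]
      exact hHJ (hbot ▸ bot_le)
  · -- the stabiliser meets the minimal normal subgroup
    push Not at hreg
    obtain ⟨m₀, hm₀N, hm₀, hm₀1⟩ := hreg
    have hC : Subgroup.centralizer (N : Set G) = ⊥ := by
      by_contra hC
      haveI : IsPretransitive (Subgroup.centralizer (N : Set G)) Ω :=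
        H80.isPretransitive_of_normal hprim inferInstance hC
      refine hm₀1 (H80.eq_one_of_commute_transitive (C := Subgroup.centralizer (N : Set G)) ?_ hm₀)
      exact fun c hc => Subgroup.mem_centralizer_iff.1 hc m₀ hm₀N
    by_cases hTeq : T = N
    · exact simpleCase hTeq hC
    exfalso
    set M := N ⊓ H with hM
    have hMconj : ∀ h ∈ H, ∀ m ∈ M, h * m * h⁻¹ ∈ M := fun h hh m hm =>
      ⟨hNn.conj_mem m hm.1 h, H.mul_mem (H.mul_mem hh hm.2) (H.inv_mem hh)⟩
    have hMnorm : (M.subgroupOf H).Normal :=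
      ⟨fun m hm h => Subgroup.mem_subgroupOf.2 (hMconj h.1 h.2 m.1 (Subgroup.mem_subgroupOf.1 hm))⟩
    -- `M` fixes or is transitive on each suborbit
    have horb : ∀ ω : Ω, (∀ m ∈ M, m • ω = ω) ∨ ∀ h ∈ H, ∃ m ∈ M, m • ω = h • ω := by
      intro ω
      set K : Subgroup H := stabilizer H ω ⊔ M.subgroupOf H
      rcases stabilizer_max hep α ω K le_sup_left with e | e
      · left
        intro m hm
        have : (⟨m, hm.2⟩ : H) ∈ stabilizer H ω := e ▸ Subgroup.mem_sup_right (Subgroup.mem_subgroupOf.2 hm)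
        exact this
      · right
        intro h hh
        haveI := hMnorm
        have : (⟨h, hh⟩ : H) ∈ stabilizer H ω ⊔ M.subgroupOf H := e.ge (Subgroup.mem_top _)
        obtain ⟨s, hs, m, hm, hsm⟩ := Subgroup.mem_sup_of_normal_right.1 this
        refine ⟨s.1 * m.1 * s.1⁻¹, hMconj s.1 s.2 m.1 hm, ?_⟩
        have e2 : h = s.1 * m.1 := (congrArg Subtype.val hsm).symm
        have hs' : s.1 • ω = ω := hs
        rw [e2, mul_smul (s.1 * m.1) s.1⁻¹, inv_smul_eq_iff.2 hs'.symm]
    -- the projection of `M` to the factor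
    let R : Subgroup G :=
      { carrier := {t | t ∈ T ∧ ∃ b ∈ B, t * b ∈ H}
        one_mem' := ⟨one_mem T, 1, one_mem B, by simp [one_mem]⟩
        mul_mem' := by
          rintro a c ⟨ha, b, hb, h1⟩ ⟨hc, b', hb', h2⟩
          refine ⟨mul_mem ha hc, b * b', mul_mem hb hb', ?_⟩
          have : a * c * (b * b') = (a * b) * (c * b') := by
            calc a * c * (b * b') = a * (c * b) * b' := by group
              _ = a * (b * c) * b' := by rw [hBc b hb c hc]
              _ = (a * b) * (c * b') := by group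
          rw [this]; exact mul_mem h1 h2
        inv_mem' := by
          rintro a ⟨ha, b, hb, h1⟩
          refine ⟨inv_mem ha, b⁻¹, inv_mem hb, ?_⟩
          rw [← mul_inv_rev, ← hBc b hb a ha]
          exact inv_mem h1 }
    have hR : ∀ t ∈ T, ∀ b ∈ B, t * b ∈ H → t ∈ R := fun t ht b hb h => ⟨ht, b, hb, h⟩
    have hmapne : ∀ h : G, T.map (MulAut.conj h).toMonoidHom ≠ T → ∀ t ∈ T, h * t * h⁻¹ ∈ B :=
      fun h hm t ht => ⟨hNn.conj_mem t (hTN ht) h, Subgroup.mem_centralizer_iff.2 fun y hy =>
        conj_factor_commute hT h hm hy ⟨t, ht, rfl⟩⟩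
    by_cases hRT : T ≤ R
    · -- full projection
      have hTH : ∀ t ∈ T, t • α = α → t = 1 := by
        intro t ht htα
        by_contra ht1
        have hne : T ⊓ H ≠ ⊥ := fun e => ht1 (Subgroup.mem_bot.1 (e ▸ ⟨ht, htα⟩))
        have he := hT.factor.eq_of_le (T ⊓ H) inf_le_left hne fun a ha x hx => by
          obtain ⟨u, hu, b, hb, rfl⟩ := hT.decomp a ha
          obtain ⟨-, b', hb', hub'⟩ := hRT hu
          refine ⟨hT.factor.conj_mem _ ha x hx.1, ?_⟩
          have e1 : u * b * x * (u * b)⁻¹ = (u * b') * x * (u * b')⁻¹ := by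
            calc u * b * x * (u * b)⁻¹ = u * (b * x * b⁻¹) * u⁻¹ := by group
              _ = u * (b' * x * b'⁻¹) * u⁻¹ := by rw [hBconj b hb x hx.1, hBconj b' hb' x hx.1]
              _ = (u * b') * x * (u * b')⁻¹ := by group
          rw [e1]
          exact H.mul_mem (H.mul_mem hub' hx.2) (H.inv_mem hub')
        -- a normal subgroup of a transitive group inside a stabiliser is trivial
        refine hT.factor.ne_bot ((Subgroup.eq_bot_iff_forall T).2 fun y hy =>
          eq_of_smul_eq_smul (α := Ω) fun ω => ?_)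
        obtain ⟨n, rfl⟩ := MulAction.exists_smul_eq N α ω
        have hy' : n.1⁻¹ * y * n.1 ∈ H := (inf_eq_left.1 he) (by
          simpa using hT.factor.conj_mem n.1⁻¹ (N.inv_mem n.2) y hy)
        rw [one_smul, Subgroup.smul_def]
        calc y • n.1 • α = n.1 • (n.1⁻¹ * y * n.1) • α := by rw [← mul_smul, ← mul_smul]; congr 1; group
          _ = n.1 • α := by rw [mem_stabilizer_iff.1 hy']
      have hMβ : ∀ m ∈ M, ∀ t ∈ T, m • t • α = (m * t * m⁻¹) • α := fun m hm t _ => by
        rw [← mul_smul, hmove m hm.2]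
      have hinv : ∀ h ∈ stabilizer G α, ∀ t ∈ T, ∃ u ∈ T, (h * t) • α = u • α := by
        intro h hh t ht
        rcases eq_or_ne t 1 with rfl | ht1
        · exact ⟨1, one_mem T, by rw [mul_one, one_smul]; exact hh⟩
        rcases horb (t • α) with hfx | htr
        · exfalso
          refine ht1 (hT.eq_one_of_mem ht fun y hy => ?_)
          obtain ⟨-, b, hb, hyb⟩ := hRT hy
          have hm : y * b ∈ M := ⟨N.mul_mem (hTN hy) hb.1, hyb⟩
          have h1 := hfx _ hm
          rw [hMβ _ hm t ht] at h1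
          have h2 : y * t * y⁻¹ = t := by
            have e : y * b * t * (y * b)⁻¹ = y * t * y⁻¹ := by
              calc y * b * t * (y * b)⁻¹ = y * (b * t * b⁻¹) * y⁻¹ := by group
                _ = y * t * y⁻¹ := by rw [hBconj b hb t ht]
            rw [e] at h1
            exact (inv_mul_eq_one.1 (hTH _ (mul_mem (inv_mem ht) (mul_mem (mul_mem hy ht)
              (inv_mem hy))) (by rw [mul_smul, h1, inv_smul_smul]))).symm
          exact (mul_inv_eq_iff_eq_mul.1 h2).symm
        · obtain ⟨m, hm, hmt⟩ := htr h hh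
          exact ⟨m * t * m⁻¹, hT.factor.conj_mem m hm.1 t ht, by rw [← hMβ m hm t ht, hmt, mul_smul]⟩
      refine false_of_invariant_factor hTnc α hep hTH hinv ?_ ?_
      · intro h hh t ht u hu e j
        rw [hmove h hh] at e ⊢
        rw [← conj_pow]
        by_cases hm : T.map (MulAut.conj h).toMonoidHom = T
        · have h1 : h * t * h⁻¹ ∈ T := hm ▸ ⟨t, ht, rfl⟩
          have h2 : u = h * t * h⁻¹ := inv_mul_eq_one.1 (hTH _ (mul_mem (inv_mem hu) h1)
            (by rw [mul_smul, e, inv_smul_smul]))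
          rw [h2]
        · have h1 := hmapne h hm t ht
          have h2 : u⁻¹ * (h * t * h⁻¹) ∈ H := by
            rw [hH, mem_stabilizer_iff, mul_smul, e, inv_smul_smul]
          have hcm : Commute u⁻¹ (h * t * h⁻¹) := (hBc _ h1 _ (inv_mem hu))
          have h3 := H.pow_mem h2 j
          rw [hcm.mul_pow, inv_pow, hH, mem_stabilizer_iff, mul_smul, inv_smul_eq_iff] at h3
          exact h3
      · intro t ht
        obtain ⟨-, b, hb, htb⟩ := hRT ht
        refine ⟨t * b, htb, fun x hx => ?_⟩
        calc t * b * x * (t * b)⁻¹ = t * (b * x * b⁻¹) * t⁻¹ := by group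
          _ = t * x * t⁻¹ := by rw [hBconj b hb x hx]
    · -- proper projection: the product decomposition
      let R' : Subgroup G :=
        { carrier := {x | ∃ r ∈ R, ∃ b ∈ B, x = r * b}
          one_mem' := ⟨1, one_mem R, 1, one_mem B, by simp⟩
          mul_mem' := by
            rintro _ _ ⟨a, ha, b, hb, rfl⟩ ⟨c, hc', b', hb', rfl⟩
            refine ⟨a * c, mul_mem ha hc', b * b', mul_mem hb hb', ?_⟩
            calc a * b * (c * b') = a * (b * c) * b' := by group
              _ = a * (c * b) * b' := by rw [hBc b hb c hc'.1]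
              _ = a * c * (b * b') := by group
          inv_mem' := by
            rintro _ ⟨a, ha, b, hb, rfl⟩
            exact ⟨a⁻¹, inv_mem ha, b⁻¹, inv_mem hb, by rw [mul_inv_rev]; exact (hBc _ (inv_mem hb) _ (inv_mem ha.1)).symm⟩ }
      let P : Subgroup G := ⨅ h : H, R'.map (MulAut.conj h.1).toMonoidHom
      have hPmem : ∀ x, x ∈ P ↔ ∀ h : H, h.1⁻¹ * x * h.1 ∈ R' := by
        intro x
        rw [Subgroup.mem_iInf]
        refine forall_congr' fun h => ⟨?_, fun hx => ⟨_, hx, by simp [MulAut.conj_apply, mul_assoc]⟩⟩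
        rintro ⟨y, hy, rfl⟩
        simpa [MulAut.conj_apply, mul_assoc] using hy
      have hMP : M ≤ P := by
        intro m hm
        rw [hPmem]
        intro h
        have hm' : h.1⁻¹ * m * h.1 ∈ M := by simpa using hMconj _ (inv_mem h.2) m hm
        obtain ⟨u, hu, b, hb, e⟩ := hT.decomp _ hm'.1
        exact ⟨u, hR u hu b hb (e ▸ hm'.2), b, hb, e⟩
      have hPconj : ∀ h ∈ H, ∀ x ∈ P, h * x * h⁻¹ ∈ P := by
        intro h hh x hx
        rw [hPmem] at hx ⊢
        intro k
        have := hx ⟨h⁻¹ * k.1, mul_mem (inv_mem hh) k.2⟩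
        simpa [mul_assoc] using this
      have hHP : P ≤ H := by
        rcases hcoat.le_iff.1 (le_sup_left : H ≤ H ⊔ P) with e | e
        · exfalso
          refine hRT fun t ht => ?_
          have hn : H ≤ Subgroup.normalizer (P : Set G) := fun h hh =>
            Subgroup.mem_normalizer_iff.2 fun x => ⟨fun hx => hPconj h hh x hx, fun hx => by
              simpa [mul_assoc] using hPconj h⁻¹ (inv_mem hh) _ hx⟩
          have htop : t ∈ H ⊔ P := e ▸ Subgroup.mem_top t
          rw [← SetLike.mem_coe, Subgroup.coe_mul_of_left_le_normalizer_right H P hn] at htop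
          obtain ⟨h, hh, x, hx, e'⟩ := htop
          simp only at e'
          obtain ⟨r, hr, b, hb, hx'⟩ := (hPmem x).1 hx 1
          simp only [OneMemClass.coe_one, inv_one, one_mul, mul_one] at hx'
          have hxN : x ∈ N := hx' ▸ N.mul_mem (hTN hr.1) hb.1
          have hhM : h ∈ M := ⟨by
            rw [show h = t * x⁻¹ by rw [← e']; group]
            exact N.mul_mem (hTN ht) (N.inv_mem hxN), hh⟩
          have h1 : t ∈ R' := by
            rw [← e']
            exact mul_mem (by simpa using (hPmem h).1 (hMP hhM) 1) (hx' ▸ ⟨r, hr, b, hb, rfl⟩)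
          obtain ⟨r', hr', b', hb', e''⟩ := h1
          have hb1 : b' = 1 := hT.eq_one_of_mem (by
              rw [show b' = r'⁻¹ * t by rw [e'']; group]; exact mul_mem (inv_mem hr'.1) ht)
            fun y hy => (hBc b' hb' y hy).symm
          rw [e'', hb1, mul_one]; exact hr'
        · exact e ▸ le_sup_right
      have hTR : ∀ r ∈ R, r ∈ H := by
        intro r hr
        refine hHP ((hPmem r).2 fun h => ?_)
        by_cases hm : T.map (MulAut.conj h.1⁻¹).toMonoidHom = T
        · obtain ⟨hrT, b, hb, hrb⟩ := id hr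
          refine ⟨h.1⁻¹ * r * h.1, ⟨hm ▸ ⟨r, hrT, by simp [MulAut.conj_apply]⟩,
            h.1⁻¹ * b * h.1, ?_, ?_⟩, 1, one_mem B, (mul_one _).symm⟩
          · refine ⟨by simpa using hNn.conj_mem b hb.1 h.1⁻¹, Subgroup.mem_centralizer_iff.2 fun y hy => ?_⟩
            obtain ⟨z, hz, rfl⟩ := (hm.symm ▸ hy : y ∈ T.map (MulAut.conj h.1⁻¹).toMonoidHom)
            have := hBc b hb z hz
            simp only [MulEquiv.toMonoidHom_eq_coe, MonoidHom.coe_coe, MulAut.conj_apply, inv_inv]
            calc h.1⁻¹ * z * h.1 * (h.1⁻¹ * b * h.1) = h.1⁻¹ * (z * b) * h.1 := by group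
              _ = h.1⁻¹ * (b * z) * h.1 := by rw [this]
              _ = h.1⁻¹ * b * h.1 * (h.1⁻¹ * z * h.1) := by group
          · rw [show h.1⁻¹ * r * h.1 * (h.1⁻¹ * b * h.1) = h.1⁻¹ * (r * b) * h.1 by group]
            exact mul_mem (mul_mem (inv_mem h.2) hrb) h.2
        · exact ⟨1, one_mem R, _, by simpa using hmapne _ hm r hr.1, (one_mul _).symm⟩
      -- some point of the orbit of the factor is moved by `M`
      obtain ⟨t, ht, htH, htr⟩ : ∃ t ∈ T, t ∉ H ∧ ∀ h ∈ H, ∃ m ∈ M, m • t • α = h • t • α := by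
        by_contra hcon
        push Not at hcon
        have hnm : ∀ t ∈ T, ∀ m ∈ M, t⁻¹ * m * t ∈ M := by
          intro t ht m hm
          refine ⟨by simpa using hNn.conj_mem m hm.1 t⁻¹, ?_⟩
          by_cases htH : t ∈ H
          · exact H.mul_mem (H.mul_mem (H.inv_mem htH) hm.2) htH
          · obtain ⟨h, hh, hne⟩ := hcon t ht htH
            have hfx := (horb (t • α)).resolve_right fun hf => by
              obtain ⟨m', hm', e⟩ := hf h hh
              exact hne m' hm' e
            show (t⁻¹ * m * t) • α = α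
            rw [mul_smul, mul_smul, hfx m hm, inv_smul_smul]
        -- hence `M` is normalised by the whole of `N`
        let L : Subgroup G := Subgroup.normalizer (M : Set G)
        have hHL : H ≤ L := fun h hh => Subgroup.mem_normalizer_iff.2 fun x =>
          ⟨fun hx => hMconj h hh x hx, fun hx => by simpa [mul_assoc] using hMconj h⁻¹ (inv_mem hh) _ hx⟩
        have hTL : T ≤ L := fun t ht => Subgroup.mem_normalizer_iff.2 fun x =>
          ⟨fun hx => by simpa using hnm t⁻¹ (inv_mem ht) x hx,
           fun hx => by simpa [mul_assoc] using hnm t ht _ hx⟩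
        rcases hcoat.le_iff.1 hHL with e | e
        · haveI : M.Normal := ⟨fun x hx g =>
            (Subgroup.mem_normalizer_iff.1 (e ▸ Subgroup.mem_top g : g ∈ L) x).1 hx⟩
          have hMN : M = N := hT.minimal.eq_of_normal inferInstance inf_le_left
            fun hb => hm₀1 (Subgroup.mem_bot.1 (hb ▸ ⟨hm₀N, hm₀⟩))
          exact hNH (inf_eq_left.1 hMN)
        · exact hRT fun t ht => hR t ht 1 (one_mem B) (by rw [mul_one]; exact e ▸ hTL ht)
      -- an element of the stabiliser moving the factor
      obtain ⟨h, hh, hm⟩ : ∃ h ∈ H, T.map (MulAut.conj h).toMonoidHom ≠ T := by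
        by_contra hcon
        push Not at hcon
        apply hTeq
        refine hT.minimal.eq_of_normal ⟨fun x hx g => ?_⟩ hTN hT.factor.ne_bot
        obtain ⟨n, hn, h, hh, rfl⟩ := hGdec g
        have h1 : h * x * h⁻¹ ∈ T := hcon h hh ▸ ⟨x, hx, rfl⟩
        simpa [mul_assoc] using hT.factor.conj_mem n hn _ h1
      obtain ⟨m, hmM, he⟩ := htr h hh
      rw [← mul_smul, ← mul_smul, hmove m hmM.2, hmove h hh] at he
      have hu : m * t * m⁻¹ ∈ T := hT.factor.conj_mem m hmM.1 t ht
      have hb := hmapne h hm t ht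
      have h2 : (m * t * m⁻¹)⁻¹ * (h * t * h⁻¹) ∈ H := by
        rw [hH, mem_stabilizer_iff, mul_smul, ← he, inv_smul_smul]
      have h3 := hTR _ (hR _ (inv_mem hu) _ hb h2)
      apply htH
      have h4 : m * t * m⁻¹ ∈ H := by simpa using inv_mem h3
      have := H.mul_mem (H.mul_mem (H.inv_mem hmM.2) h4) hmM.2
      simpa [mul_assoc] using this

end Cfsg.Agent.H79.EPSocle
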