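import Mathlib

/-!
An almost simple group has no maximal subgroup of prime order.
-/

set_option autoImplicit false

namespace Cfsg.Agent.H79

open Subgroup
open scoped Pointwise

theorem almostSimple_not_maximal_prime {G : Type*} [Group G] [Finite G] (T : Subgroup G)
    [T.Normal] (hT : IsSimpleGroup T) (hTc : ¬ IsMulCommutative T)
    (hC : centralizer (T : Set G) = ⊥) (H : Subgroup G) (hmax : IsCoatom H) :
    ¬ (Nat.card H).Prime := by
  classical
  intro hr
  set r := Nat.card H with hrdef
  haveI := Fact.mk hr
  haveI : IsCyclic H := isCyclic_of_prime_card rfl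
  have hHne : H ≠ ⊥ := fun h => hr.ne_one (by rw [hrdef, h, Subgroup.card_bot])
  have hTns : ¬ ∀ a b : T, a * b = b * a := fun h => hTc ⟨⟨h⟩⟩
  haveI := hT
  -- subgroups of `H` are trivial or everything
  have hsub : ∀ K : Subgroup G, K ≤ H → K = ⊥ ∨ K = H := by
    intro K hK
    rcases (Nat.dvd_prime hr).1 (Subgroup.card_dvd_of_le hK) with h | h
    · exact Or.inl (Subgroup.card_eq_one.1 h)
    · exact Or.inr (Subgroup.eq_of_le_of_card_ge hK h.ge)
  have hnotle : ¬ T ≤ H := by
    intro h
    rcases hsub T h with h1 | h1
    · exact hTns fun a b => Subtype.ext (by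
        have ha : (a : G) = 1 := Subgroup.mem_bot.1 (h1 ▸ a.2)
        have hb : (b : G) = 1 := Subgroup.mem_bot.1 (h1 ▸ b.2)
        simp [ha, hb])
    · subst h1
      letI := IsCyclic.commGroup (α := T)
      exact hTns mul_comm
  -- the subgroup is self-normalising
  have hnn : ¬ H.Normal := by
    intro hN
    rcases hsub (T ⊓ H) inf_le_right with h | h
    · have : H ≤ centralizer (T : Set G) := fun x hx =>
        Subgroup.mem_centralizer_iff.2 fun t ht =>
          (Subgroup.commute_of_normal_of_disjoint T H inferInstance hN (disjoint_iff.2 h) t x ht hx)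
      rw [hC] at this
      exact hHne (le_bot_iff.1 this)
    · have hHT : H ≤ T := h ▸ inf_le_left
      haveI : (H.subgroupOf T).Normal := hN.subgroupOf T
      rcases IsSimpleGroup.eq_bot_or_eq_top_of_normal (H.subgroupOf T) inferInstance with h' | h'
      · rw [Subgroup.subgroupOf_eq_bot, disjoint_iff] at h'
        exact hHne (by rwa [inf_eq_left.2 hHT] at h')
      · exact hnotle (Subgroup.subgroupOf_eq_top.1 h')
  have hnorm : normalizer (H : Set G) = H := by
    rcases eq_or_lt_of_le (Subgroup.le_normalizer (H := H)) with h | h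
    · exact h.symm
    · exact absurd (Subgroup.normalizer_eq_top_iff.1 (hmax.2 _ h)) hnn
  -- hence a Sylow subgroup
  obtain ⟨P, hP⟩ := (IsPGroup.of_card (p := r) (n := 1)
    (show Nat.card H = r ^ 1 by rw [pow_one])).exists_le_sylow
  have hPH : (P : Subgroup G) = H := by
    rcases eq_or_lt_of_le hP with h | h
    · exact h.symm
    exfalso
    have htop := hmax.2 _ h
    haveI : Fact r.Prime := ⟨hr⟩
    haveI : Group.IsNilpotent (P : Subgroup G) := P.isPGroup'.isNilpotent
    haveI : Group.IsNilpotent (⊤ : Subgroup G) := htop ▸ this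
    haveI : Group.IsNilpotent G := nilpotent_of_mulEquiv Subgroup.topEquiv
    exact hnn (NormalizerCondition.normal_of_coatom H
      (Group.normalizerCondition_of_isNilpotent) hmax)
  have hcardP : Nat.card (P : Subgroup G) = r := by rw [hPH]
  rcases hsub (T ⊓ H) inf_le_right with h | h
  · -- complement case
    have hTH : T ⊔ H = ⊤ := by
      apply hmax.2
      exact lt_of_le_of_ne le_sup_right fun h' => hnotle (h' ▸ le_sup_left)
    have hT1 : Nat.card T ≠ 1 := by
      intro h1
      rw [Subgroup.card_eq_one] at h1
      exact hnotle (h1 ▸ bot_le)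
    set s := (Nat.card T).minFac
    haveI : Fact s.Prime := ⟨Nat.minFac_prime hT1⟩
    obtain ⟨S⟩ : Nonempty (Sylow s T) := inferInstance
    set S' : Subgroup G := (S : Subgroup T).map T.subtype
    have hfr : normalizer (S' : Set G) ⊔ T = ⊤ := Sylow.normalizer_sup_eq_top S
    have hdvd : r ∣ Nat.card (normalizer (S' : Set G)) := by
      have h1 : T.relIndex (normalizer (S' : Set G)) = T.index := by
        rw [← Subgroup.relIndex_sup_right (K := T), hfr, Subgroup.relIndex_top_right]
      have h2 : T.index = r := by
        rw [← Subgroup.relIndex_top_right, ← hTH, sup_comm, Subgroup.relIndex_sup_right,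
          ← Subgroup.inf_relIndex_right, h, Subgroup.relIndex_bot_left]
      exact h2 ▸ h1 ▸ Subgroup.relIndex_dvd_card _ _
    obtain ⟨x, hx⟩ := exists_prime_orderOf_dvd_card' (G := normalizer (S' : Set G)) r hdvd
    have hx' : Nat.card (zpowers (x : G)) = r := by
      rw [Nat.card_zpowers, Subgroup.orderOf_coe, hx]
    obtain ⟨Q, hQ⟩ := (IsPGroup.of_card (p := r) (n := 1)
      (show Nat.card (zpowers (x : G)) = r ^ 1 by rw [pow_one, hx'])).exists_le_sylow
    have hQx : (Q : Subgroup G) = zpowers (x : G) := by
      refine (Subgroup.eq_of_le_of_card_ge hQ ?_).symm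
      rw [Sylow.card_eq_multiplicity, ← Sylow.card_eq_multiplicity P, hcardP, hx']
    obtain ⟨g, hg⟩ := MulAction.exists_smul_eq G Q P
    -- move `S'` along `g`
    set S'' : Subgroup G := MulAut.conj g • S'
    have hHn : H ≤ normalizer (S'' : Set G) := by
      rw [← hPH, ← hg, Sylow.coe_subgroup_smul, hQx]
      intro y hy
      rw [Subgroup.mem_pointwise_smul_iff_inv_smul_mem] at hy
      have := (Subgroup.zpowers_le.2 x.2) hy
      rw [Subgroup.mem_normalizer_iff] at this ⊢
      intro z
      simp only [S'', Subgroup.mem_pointwise_smul_iff_inv_smul_mem, MulAut.smul_def,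
        MulAut.inv_def, MulAut.conj_symm_apply] at this ⊢
      rw [this (g⁻¹ * z * g)]
      simp [mul_assoc]
    have hS''T : S'' ≤ T := by
      intro y hy
      rw [Subgroup.mem_pointwise_smul_iff_inv_smul_mem] at hy
      obtain ⟨z, -, hz⟩ := hy
      simp only [MulAut.smul_def, MulAut.inv_def, MulAut.conj_symm_apply, Subgroup.coe_subtype] at hz
      have := (inferInstance : T.Normal).conj_mem _ z.2 g
      rw [hz] at this
      simpa [mul_assoc] using this
    have hnot : ¬ S'' ≤ H := by
      intro h'
      have hb : S'' = ⊥ := le_bot_iff.1 (h ▸ le_inf hS''T h')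
      have hS1 : S' = ⊥ := by
        rw [← inv_smul_smul (MulAut.conj g) S']
        show (MulAut.conj g)⁻¹ • S'' = ⊥
        rw [hb]
        exact Subgroup.map_bot _
      have : (S : Subgroup T) = ⊥ :=
        Subgroup.map_injective T.subtype_injective (hS1.trans (Subgroup.map_bot _).symm)
      exact Sylow.ne_bot_of_dvd_card S (Nat.minFac_dvd _) this
    have htop : S'' ⊔ H = ⊤ :=
      hmax.2 _ (lt_of_le_of_ne le_sup_right fun h' => hnot (h' ▸ le_sup_left))
    have hTS : T ≤ S'' := by
      intro t ht
      have : t ∈ (S'' : Set G) * (H : Set G) := by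
        rw [← Subgroup.coe_mul_of_right_le_normalizer_left _ _ hHn, htop]
        trivial
      obtain ⟨a, ha, b, hb, rfl⟩ := this
      have hbT : b ∈ T := by simpa using mul_mem (inv_mem (hS''T ha)) ht
      have : b = 1 := Subgroup.mem_bot.1 (h ▸ ⟨hbT, hb⟩)
      simpa [this] using ha
    have hpg : IsPGroup s T := ((S.isPGroup'.map T.subtype).map
      (MulDistribMulAction.toMonoidEnd _ _ (MulAut.conj g))).to_le hTS
    haveI : Finite T := inferInstance
    haveI : Group.IsNilpotent T := hpg.isNilpotent
    exact hTns (IsSimpleGroup.comm_iff_isSolvable.2 inferInstance)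
  · -- `H ≤ T`, so `G = T` is simple and transfer applies
    have hHT : H ≤ T := h ▸ inf_le_left
    have hTtop : T = ⊤ := hmax.2 T (lt_of_le_of_ne hHT fun h' => hnotle h'.ge)
    haveI : IsSimpleGroup G := by
      subst hTtop
      haveI : Nontrivial G :=
        (Subgroup.topEquiv (G := G)).toEquiv.symm.nontrivial
      exact IsSimpleGroup.isSimpleGroup_of_surjective (Subgroup.topEquiv (G := G)).toMonoidHom
        Subgroup.topEquiv.surjective
    have hPN : normalizer ((P : Subgroup G) : Set G) ≤ centralizer ((P : Subgroup G) : Set G) := by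
      rw [hPH, hnorm]
      exact Subgroup.le_centralizer_iff_isMulCommutative.2 inferInstance
    have hcompl := MonoidHom.ker_transferSylow_isComplement' P hPN
    have hker : (MonoidHom.transferSylow P hPN).ker.Normal := inferInstance
    rcases IsSimpleGroup.eq_bot_or_eq_top_of_normal _ hker with h' | h'
    · have := hcompl.card_mul
      rw [h', Subgroup.card_bot, one_mul] at this
      have htopH : H = ⊤ := Subgroup.eq_top_of_card_eq _ (hPH ▸ this)
      exact hnotle (htopH ▸ le_top)
    · have hd := MonoidHom.not_dvd_card_ker_transferSylow P hPN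
      apply hd
      rw [h', Subgroup.card_top]
      exact hrdef ▸ Subgroup.card_subgroup_dvd_card H

end Cfsg.Agent.H79
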