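import Mathlib

/-!
An element fixed by all automorphisms of the product of a generalised quaternion group with a
group all whose involutions are central.
-/

set_option autoImplicit false

namespace Cfsg.Agent.H79

section Abstract

variable {Q R : Type*} [Group Q] [Group R]

theorem quaternion_factor_fixed [Finite Q] (z a b : Q) (hz : z ≠ 1) (hz2 : z * z = 1)
    (hinv : ∀ q : Q, q * q = 1 → q = 1 ∨ q = z) (hcomm : z = a * b * a⁻¹ * b⁻¹)
    (hker : ∀ f : Q →* Q, f z ≠ 1 → Function.Injective f)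
    (hcen : ∀ q : Q, (∀ x : Q, q * x = x * q) → q = 1 ∨ q = z)
    (hR : ∀ r : R, r * r = 1 → ∀ x : R, r * x = x * r)
    (φ : MulAut (Q × R)) (h : (φ (z, 1)).1 ≠ 1) : φ (z, 1) = (z, 1) := by
  let f : Q →* Q := (MonoidHom.fst Q R).comp (φ.toMonoidHom.comp (MonoidHom.inl Q R))
  let g : Q →* R := (MonoidHom.snd Q R).comp (φ.toMonoidHom.comp (MonoidHom.inl Q R))
  let k : R →* Q := (MonoidHom.fst Q R).comp (φ.toMonoidHom.comp (MonoidHom.inr Q R))
  let j : R →* R := (MonoidHom.snd Q R).comp (φ.toMonoidHom.comp (MonoidHom.inr Q R))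
  have hφ : ∀ q x, φ (q, x) = (f q * k x, g q * j x) := by
    intro q x
    have : φ (q, x) = φ (q, 1) * φ (1, x) := by rw [← map_mul]; simp
    rw [this]; rfl
  have hfinj : Function.Injective f := hker f h
  have hfz : f z = z := (hinv (f z) (by rw [← map_mul, hz2, map_one])).resolve_left h
  have hfsurj : Function.Surjective f := Finite.injective_iff_surjective.1 hfinj
  have hcross : ∀ q x, f q * k x = k x * f q ∧ g q * j x = j x * g q := by
    intro q x
    have h1 : φ (q, 1) * φ (1, x) = φ (1, x) * φ (q, 1) := by rw [← map_mul, ← map_mul]; simp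
    rw [hφ, hφ] at h1
    simpa using h1
  have hk : ∀ x, k x = 1 ∨ k x = z := by
    intro x
    refine hcen _ fun y => ?_
    obtain ⟨q, rfl⟩ := hfsurj y
    exact (hcross q x).1.symm
  set r := g z with hr
  have hrc : ∀ y : R, r * y = y * r := hR r (by rw [hr, ← map_mul, hz2, map_one])
  have hgen : ∀ y : R, ∃ x, y = j x ∨ y = r * j x := by
    intro y
    obtain ⟨⟨q, x⟩, hqx⟩ := φ.surjective (1, y)
    rw [hφ, Prod.mk.injEq] at hqx
    refine ⟨x, ?_⟩
    rcases hk x with e | e
    · rw [e, mul_one] at hqx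
      have hq : q = 1 := hfinj (hqx.1.trans (map_one f).symm)
      have h1 := hqx.2
      rw [hq, map_one, one_mul] at h1
      exact Or.inl h1.symm
    · have hq : q = z := hfinj (by
        rw [hfz]
        have h1 := hqx.1
        rw [e] at h1
        exact (eq_inv_of_mul_eq_one_left h1).trans (inv_eq_of_mul_eq_one_right hz2))
      rw [hq] at hqx
      exact Or.inr hqx.2.symm
  have hgc : ∀ q y, g q * y = y * g q := by
    intro q y
    obtain ⟨x, rfl | rfl⟩ := hgen y
    · exact (hcross q x).2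
    · rw [← mul_assoc, ← hrc (g q), mul_assoc, (hcross q x).2, mul_assoc]
  have hr1 : r = 1 := by
    rw [hr, hcomm, map_mul, map_mul, map_mul, hgc a (g b), map_inv, map_inv]
    group
  rw [hφ, map_one, map_one, mul_one, mul_one, hfz, ← hr, hr1]

theorem exists_fixed_of_quaternion_factor [Finite Q] [Finite R] (z a b : Q) (hz : z ≠ 1)
    (hz2 : z * z = 1) (hinv : ∀ q : Q, q * q = 1 → q = 1 ∨ q = z)
    (hcomm : z = a * b * a⁻¹ * b⁻¹)
    (hker : ∀ f : Q →* Q, f z ≠ 1 → Function.Injective f)
    (hcen : ∀ q : Q, (∀ x : Q, q * x = x * q) → q = 1 ∨ q = z)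
    (hzc : ∀ q : Q, z * q = q * z)
    (hR : ∀ r : R, r * r = 1 → ∀ x : R, r * x = x * r) :
    ∃ c : Q × R, orderOf c = 2 ∧ ∀ φ : MulAut (Q × R), φ c = c := by
  classical
  have hinvc : ∀ p : Q × R, p * p = 1 → p ∈ Subgroup.center (Q × R) := by
    intro p hp
    rw [Subgroup.mem_center_iff]
    intro y
    have h1 := congrArg Prod.fst hp
    have h2 := congrArg Prod.snd hp
    refine Prod.ext ?_ (hR p.2 h2 y.2).symm
    rcases hinv p.1 h1 with e | e
    · simp [e]
    · simp [e, hzc]
  have hzz : ∀ φ : MulAut (Q × R), φ (z, 1) * φ (z, 1) = 1 := fun φ => by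
    rw [← map_mul, Prod.mk_mul_mk, hz2, one_mul]; exact map_one φ
  haveI : Finite (MulAut (Q × R)) := Finite.of_injective _ MulEquiv.toEquiv_injective
  haveI := Fintype.ofFinite (MulAut (Q × R))
  set O : Finset (Q × R) := Finset.univ.image fun φ : MulAut (Q × R) => φ (z, 1) with hO
  have hmem : ∀ {x}, x ∈ O ↔ ∃ φ : MulAut (Q × R), φ (z, 1) = x := by simp [hO]
  have hsq : ∀ x : O, (x : Q × R) * x = 1 := fun x => by
    obtain ⟨φ, hφ⟩ := hmem.1 x.2
    rw [← hφ]; exact hzz φ
  letI : CommGroup (Subgroup.center (Q × R)) :=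
    { (inferInstance : Group (Subgroup.center (Q × R))) with
      mul_comm := fun p q => Subtype.ext (Subgroup.mem_center_iff.1 q.2 p) }
  letI : CommGroup (Subgroup.center Q) :=
    { (inferInstance : Group (Subgroup.center Q)) with
      mul_comm := fun p q => Subtype.ext (Subgroup.mem_center_iff.1 q.2 p) }
  let v : O → Subgroup.center (Q × R) := fun x => ⟨x.1, hinvc _ (hsq x)⟩
  set c : Subgroup.center (Q × R) := ∏ x : O, v x
  have hc2 : c * c = 1 := by
    rw [← Finset.prod_mul_distrib]
    exact Finset.prod_eq_one fun x _ => Subtype.ext (hsq x)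
  have hfst : (c : Q × R).1 = z := by
    let π : Subgroup.center (Q × R) →* Subgroup.center Q :=
      ((MonoidHom.fst Q R).comp (Subgroup.center (Q × R)).subtype).codRestrict _ fun p => by
        rw [Subgroup.mem_center_iff]
        intro y
        exact congrArg Prod.fst (Subgroup.mem_center_iff.1 p.2 (y, 1))
    have h0 : (z, 1) ∈ O := hmem.2 ⟨1, rfl⟩
    show ((π c : Subgroup.center Q) : Q) = z
    rw [map_prod, Finset.prod_eq_single (⟨(z, 1), h0⟩ : O)]
    · rfl
    · intro x _ hx
      apply Subtype.ext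
      show (x : Q × R).1 = 1
      by_contra hne
      obtain ⟨φ, hφ⟩ := hmem.1 x.2
      exact hx (Subtype.ext (hφ.symm.trans
        (quaternion_factor_fixed z a b hz hz2 hinv hcomm hker hcen hR φ (hφ ▸ hne))))
    · exact fun hn => absurd (Finset.mem_univ _) hn
  refine ⟨c, ?_, fun φ => ?_⟩
  · haveI : Fact (Nat.Prime 2) := ⟨Nat.prime_two⟩
    refine orderOf_eq_prime ?_ fun e => hz ?_
    · rw [pow_two, ← Subgroup.coe_mul, hc2, OneMemClass.coe_one]
    · rw [← hfst, e]; rfl
  · let ψ : Subgroup.center (Q × R) →* Subgroup.center (Q × R) :=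
      ((φ.toMonoidHom).comp (Subgroup.center (Q × R)).subtype).codRestrict _ fun p => by
        rw [Subgroup.mem_center_iff]
        intro y
        obtain ⟨w, rfl⟩ := φ.surjective y
        show φ w * φ p = φ p * φ w
        rw [← map_mul, ← map_mul, Subgroup.mem_center_iff.1 p.2 w]
    have hOm : ∀ x ∈ O, φ x ∈ O := fun x hx => by
      obtain ⟨χ, hχ⟩ := hmem.1 hx
      exact hmem.2 ⟨φ * χ, by rw [MulAut.mul_apply, hχ]⟩
    let σ : O → O := fun x => ⟨φ x.1, hOm x.1 x.2⟩
    have hσ : Function.Bijective σ := Finite.injective_iff_bijective.1 fun x y e =>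
      Subtype.ext (φ.injective (congrArg Subtype.val e))
    have hψ : ψ c = c := by
      rw [map_prod]
      exact (Equiv.ofBijective σ hσ).prod_comp v
    exact congrArg Subtype.val hψ

end Abstract

open QuaternionGroup in
/-- The facts used about generalised quaternion `2`-groups. -/
theorem quaternion_two_facts (n : ℕ) (hn : 1 ≤ n) :
    ∃ z x y : QuaternionGroup (2 ^ n), z ≠ 1 ∧ z * z = 1 ∧
      (∀ q, q * q = 1 → q = 1 ∨ q = z) ∧ z = x * y * x⁻¹ * y⁻¹ ∧
      (∀ f : QuaternionGroup (2 ^ n) →* QuaternionGroup (2 ^ n), f z ≠ 1 → Function.Injective f) ∧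
      (∀ q, (∀ w, q * w = w * q) → q = 1 ∨ q = z) ∧ (∀ q, z * q = q * z) := by
  haveI : NeZero (2 ^ n) := ⟨by positivity⟩
  set N := 2 ^ n with hN
  have hN2 : 2 ≤ N := Nat.le_self_pow (by omega) 2
  have hne : ((N : ℕ) : ZMod (2 * N)) ≠ 0 := by
    rw [Ne, ZMod.natCast_eq_zero_iff]
    exact fun h => absurd (Nat.le_of_dvd (by omega) h) (by omega)
  have hdbl : ((N : ℕ) : ZMod (2 * N)) + N = 0 := by
    rw [← Nat.cast_add, ← two_mul, ZMod.natCast_self]
  have hhalf : ∀ i : ZMod (2 * N), i + i = 0 → i = 0 ∨ i = (N : ZMod (2 * N)) := by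
    intro i hi
    have h1 : ((i.val + i.val : ℕ) : ZMod (2 * N)) = 0 := by
      push_cast; simpa using hi
    rw [ZMod.natCast_eq_zero_iff] at h1
    obtain ⟨k, hk⟩ := h1
    have hlt : i.val < 2 * N := ZMod.val_lt i
    rcases k with _ | _ | k
    · left
      rw [← ZMod.natCast_zmod_val i, show i.val = 0 by omega, Nat.cast_zero]
    · right
      rw [← ZMod.natCast_zmod_val i, show i.val = N by omega]
    · nlinarith
  have hinv : ∀ q : QuaternionGroup N, q * q = 1 → q = 1 ∨ q = a (N : ZMod (2 * N)) := by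
    rintro (i | i) h
    · rw [a_mul_a, one_def] at h
      rcases hhalf i (a.inj h) with rfl | rfl
      · exact Or.inl rfl
      · exact Or.inr rfl
    · rw [xa_mul_xa, add_sub_cancel_right, one_def] at h
      exact absurd (a.inj h) hne
  have hzc : ∀ q : QuaternionGroup N, a (N : ZMod (2 * N)) * q = q * a (N : ZMod (2 * N)) := by
    rintro (i | i)
    · rw [a_mul_a, a_mul_a, add_comm]
    · rw [a_mul_xa, xa_mul_a]
      congr 1
      linear_combination -hdbl
  have hz1 : (a (N : ZMod (2 * N)) : QuaternionGroup N) ≠ 1 := fun e => hne (a.inj e)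
  refine ⟨a (N : ZMod (2 * N)), xa 0, a ((2 ^ (n - 1) : ℕ) : ZMod (2 * N)), hz1, ?_, hinv, ?_,
    ?_, ?_, hzc⟩
  · rw [a_mul_a, one_def, hdbl]
  · set m : ZMod (2 * N) := ((2 ^ (n - 1) : ℕ) : ZMod (2 * N)) with hm
    have hmm : m + m = (N : ZMod (2 * N)) := by
      rw [hm, ← Nat.cast_add]
      congr 1
      rw [hN, ← mul_pow_sub_one (by omega : n ≠ 0) 2, two_mul]
    have hia : (a m : QuaternionGroup N)⁻¹ = a (-m) := rfl
    have hix : (xa 0 : QuaternionGroup N)⁻¹ = xa ((N : ZMod (2 * N)) + 0) := rfl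
    rw [hia, hix, xa_mul_a, xa_mul_xa, a_mul_a]
    congr 1
    first | linear_combination hmm | linear_combination -hmm | linear_combination hmm + hdbl | linear_combination -hmm + hdbl | linear_combination hmm - hdbl | linear_combination -hmm - hdbl
  · intro f hf
    rw [← MonoidHom.ker_eq_bot_iff]
    by_contra hk
    haveI : Fact (Nat.Prime 2) := ⟨Nat.prime_two⟩
    haveI : Nontrivial f.ker := (Subgroup.nontrivial_iff_ne_bot _).2 hk
    have h2 : 2 ∣ Nat.card f.ker := by
      have hd : Nat.card f.ker ∣ 2 ^ (n + 2) := by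
        refine (Subgroup.card_subgroup_dvd_card _).trans (dvd_of_eq ?_)
        rw [Nat.card_eq_fintype_card, QuaternionGroup.card, hN]; ring
      obtain ⟨k, -, hk2⟩ := (Nat.dvd_prime_pow Nat.prime_two).1 hd
      rcases k with _ | k
      · have := Finite.one_lt_card (α := f.ker); rw [hk2] at this; simp at this
      · exact hk2 ▸ dvd_pow_self 2 k.succ_ne_zero
    obtain ⟨q, hq⟩ := exists_prime_orderOf_dvd_card' 2 h2
    have hq2 : (q : QuaternionGroup N) * q = 1 := by
      rw [← pow_two, ← Subgroup.coe_pow, ← hq, pow_orderOf_eq_one]; rfl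
    rcases hinv _ hq2 with e | e
    · have : q = 1 := Subtype.ext e
      rw [this, orderOf_one] at hq; omega
    · exact hf (e ▸ q.2)
  · rintro (i | i) h
    · have h1 := h (xa 0)
      rw [a_mul_xa, xa_mul_a] at h1
      have h2 : i + i = 0 := by linear_combination -(xa.inj h1)
      rcases hhalf i h2 with rfl | rfl
      · exact Or.inl rfl
      · exact Or.inr rfl
    · exfalso
      have h1 := h (a 1)
      rw [xa_mul_a, a_mul_xa] at h1
      have h2 : ((2 : ℕ) : ZMod (2 * N)) = 0 := by push_cast; linear_combination (xa.inj h1)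
      rw [ZMod.natCast_eq_zero_iff] at h2
      have := Nat.le_of_dvd two_pos h2
      omega

end Cfsg.Agent.H79
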