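import Mathlib

/-!
A permutation agreeing on every triple of points with some affine map is affine.
-/

set_option autoImplicit false

namespace Cfsg.Agent.H79

variable {p : ℕ} [Fact p.Prime] {V : Type*} [AddCommGroup V] [Module (ZMod p) V]

/-- A permutation is affine if it is a linear equivalence followed by a translation. -/
def IsAffPerm (p : ℕ) [Fact p.Prime] {V : Type*} [AddCommGroup V] [Module (ZMod p) V]
    (τ : Equiv.Perm V) : Prop :=
  ∃ (A : V ≃ₗ[ZMod p] V) (b : V), ∀ x, τ x = A x + b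

/-- Agreement on triples with affine maps gives affinity on every line. -/
theorem triple_agree_line {σ : Equiv.Perm V}
    (h : ∀ t : Fin 3 → V, ∃ g : Equiv.Perm V, IsAffPerm p g ∧ ∀ i, σ (t i) = g (t i))
    (c : ZMod p) (u v : V) : σ ((1 - c) • u + c • v) = (1 - c) • σ u + c • σ v := by
  obtain ⟨g, ⟨A, b, hA⟩, hg⟩ := h ![u, v, (1 - c) • u + c • v]
  have h0 : σ u = g u := hg 0
  have h1 : σ v = g v := hg 1
  have h2 : σ ((1 - c) • u + c • v) = g ((1 - c) • u + c • v) := hg 2
  rw [h0, h1, h2, hA, hA, hA, map_add, map_smul, map_smul]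
  module

theorem two_ne_zero_zmod (hp : p ≠ 2) : (2 : ZMod p) ≠ 0 := by
  intro h0
  have : ((2 : ℕ) : ZMod p) = 0 := by exact_mod_cast h0
  rw [CharP.cast_eq_zero_iff (ZMod p) p] at this
  exact hp ((Nat.prime_dvd_prime_iff_eq Fact.out Nat.prime_two).1 this)

/-- In odd characteristic a permutation affine on lines is affine. -/
theorem isAffPerm_of_lines {σ : Equiv.Perm V}
    (hline : ∀ (c : ZMod p) (u v : V), σ ((1 - c) • u + c • v) = (1 - c) • σ u + c • σ v)
    (h2 : (2 : ZMod p) ≠ 0) : IsAffPerm p σ := by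
  let τ : V → V := fun x => σ x - σ 0
  have hsmul : ∀ (c : ZMod p) (x : V), τ (c • x) = c • τ x := by
    intro c x
    have := hline c 0 x
    simp only [smul_zero, zero_add] at this
    simp only [τ, this]
    module
  have hadd : ∀ x y : V, τ (x + y) = τ x + τ y := by
    intro x y
    have h1 := hline (2 : ZMod p)⁻¹ ((2 : ZMod p) • x) ((2 : ZMod p) • y)
    have hc : (1 - (2 : ZMod p)⁻¹) * 2 = 1 := by field_simp; norm_num
    have hd : (2 : ZMod p)⁻¹ * 2 = 1 := inv_mul_cancel₀ h2
    simp only [smul_smul, hc, hd, one_smul] at h1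
    have e : ∀ z, σ ((2 : ZMod p) • z) = (2 : ZMod p) • τ z + σ 0 := by
      intro z
      rw [← hsmul]; simp [τ]
    rw [e, e] at h1
    show σ (x + y) - σ 0 = τ x + τ y
    rw [h1, smul_add, smul_add, smul_smul, smul_smul, hc, hd]
    module
  let L : V →ₗ[ZMod p] V := { toFun := τ, map_add' := hadd, map_smul' := hsmul }
  have hb : Function.Bijective L :=
    (Equiv.subRight (σ 0)).bijective.comp σ.bijective
  exact ⟨LinearEquiv.ofBijective L hb, σ 0, fun x => by simp [L, τ]⟩

/-- A permutation fixing three affinely independent points of the plane and affine on all lines is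
the identity. -/
theorem perm_eq_one_of_lines {σ : Equiv.Perm (Fin 2 → ZMod p)}
    (hline : ∀ (c : ZMod p) (u v : Fin 2 → ZMod p),
      σ ((1 - c) • u + c • v) = (1 - c) • σ u + c • σ v)
    (h0 : σ 0 = 0) (h1 : σ ![1, 0] = ![1, 0]) (h2 : σ ![0, 1] = ![0, 1]) : σ = 1 := by
  have haxis : ∀ c : ZMod p, σ ![c, 0] = ![c, 0] ∧ σ ![0, c] = ![0, c] := by
    intro c
    have a := hline c 0 ![1, 0]
    have b := hline c 0 ![0, 1]
    rw [h0] at a b
    rw [h1] at a
    rw [h2] at b
    simpa using And.intro a b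
  ext1 x
  rcases eq_or_ne p 2 with rfl | hp
  · -- four points only: all but `![1, 1]` are fixed
    have hx : x = ![x 0, x 1] := by ext i; fin_cases i <;> rfl
    have key : ∀ a b : ZMod 2, σ ![a, b] = ![a, b] := by
      intro a b
      have hz : ∀ a : ZMod 2, a = 0 ∨ a = 1 :=
        fun a => by
          rcases a with ⟨i, hi⟩
          interval_cases i
          · exact Or.inl rfl
          · exact Or.inr rfl
      rcases hz a with rfl | rfl
      · exact (haxis b).2
      rcases hz b with rfl | rfl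
      · exact (haxis 1).1
      obtain ⟨y, hy⟩ : ∃ y, σ y = ![1, 1] := σ.surjective _
      have hy' : y = ![y 0, y 1] := by ext i; fin_cases i <;> rfl
      rw [hy'] at hy
      rcases hz (y 0) with e0 | e0 <;> rw [e0] at hy
      · rw [(haxis _).2] at hy
        exact absurd (congrFun hy 0) (by simp)
      rcases hz (y 1) with e1 | e1 <;> rw [e1] at hy
      · rw [(haxis _).1] at hy
        exact absurd (congrFun hy 1) (by simp)
      · exact hy
    rw [hx]; exact key _ _
  · obtain ⟨A, b, hA⟩ := isAffPerm_of_lines hline (two_ne_zero_zmod hp)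
    have hb : b = 0 := by simpa [hA] using h0
    subst hb
    have e1 : A ![1, 0] = ![1, 0] := by simpa [hA] using h1
    have e2 : A ![0, 1] = ![0, 1] := by simpa [hA] using h2
    have hx : x = x 0 • ![1, 0] + x 1 • ![0, 1] := by ext i; fin_cases i <;> simp
    rw [Equiv.Perm.one_apply, hA, add_zero]
    conv_lhs => rw [hx, map_add, map_smul, map_smul, e1, e2]
    exact hx.symm

/-- In odd characteristic a permutation agreeing on triples with affine maps is affine. -/
theorem isAffPerm_of_triple_agree (hp : p ≠ 2) {σ : Equiv.Perm V}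
    (h : ∀ t : Fin 3 → V, ∃ g : Equiv.Perm V, IsAffPerm p g ∧ ∀ i, σ (t i) = g (t i)) :
    IsAffPerm p σ :=
  isAffPerm_of_lines (triple_agree_line h) (two_ne_zero_zmod hp)

/-- A linear map can be corrected to determinant one away from a proper subspace. -/
theorem exists_det_one_agree [FiniteDimensional (ZMod p) V] (A : V ≃ₗ[ZMod p] V)
    (W : Submodule (ZMod p) V) (hW : W ≠ ⊤) :
    ∃ B : V ≃ₗ[ZMod p] V, LinearMap.det (B : V →ₗ[ZMod p] V) = 1 ∧ ∀ w ∈ W, B w = A w := by
  obtain ⟨f, hf0, hfW⟩ := Submodule.exists_le_ker_of_lt_top W (lt_top_iff_ne_top.2 hW)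
  obtain ⟨u, hu⟩ : ∃ u, f u = 1 := by
    obtain ⟨u, hu⟩ := DFunLike.ne_iff.1 hf0
    exact ⟨(f u)⁻¹ • u, by rw [map_smul, smul_eq_mul, inv_mul_cancel₀ hu]⟩
  set d := LinearMap.det (A : V →ₗ[ZMod p] V) with hd
  have hd0 : d ≠ 0 := A.isUnit_det'.ne_zero
  let C : V →ₗ[ZMod p] V := LinearMap.id + f.smulRight ((d⁻¹ - 1) • u)
  have hC : LinearMap.det C = d⁻¹ := by
    rw [show C = LinearMap.transvection f ((d⁻¹ - 1) • u) from rfl, LinearMap.transvection.det,
      map_smul, hu]
    simp
  let Ce : V ≃ₗ[ZMod p] V := C.equivOfDetNeZero (by rw [hC]; exact inv_ne_zero hd0)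
  refine ⟨Ce.trans A, ?_, fun w hw => ?_⟩
  · rw [LinearEquiv.coe_trans, LinearMap.det_comp]
    show d * LinearMap.det C = 1
    rw [hC, mul_inv_cancel₀ hd0]
  · show A (C w) = A w
    have : f w = 0 := hfW hw
    simp [C, this]

end Cfsg.Agent.H79
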